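/-
The measure `(largest abelian order, order of the Thompson subgroup)` of a subgroup, and largest
abelian subgroups acting quadratically.
-/
import Cfsg.Agent.Fusion.Alperin
import Cfsg.Agent.FusionZJ.Offender

/-!
Monotonicity and invariance of the measure used to order the subgroups in the rigidity induction.
-/

set_option autoImplicit false
set_option linter.style.haveILetI false
set_option linter.unusedSectionVars false

namespace Cfsg.Agent.Fusion.CentOdd

open Cfsg Cfsg.FusionSystem Cfsg.Agent.FusionZJ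
open scoped commutatorElement

variable {Ω : Type*} [Group Ω] {P Q R A B : Subgroup Ω}

theorem finite_subgroups_le [Finite P] : {A : Subgroup Ω | A ≤ P}.Finite :=
  (Set.finite_range fun A' : Subgroup P => A'.map P.subtype).subset fun A hA =>
    ⟨A.subgroupOf P, Subgroup.map_subgroupOf_eq_of_le hA⟩

theorem exists_maxAb [Finite P] : ∃ A, IsMaxAb P A := by
  obtain ⟨A, hA, hmax⟩ := Set.Finite.exists_maximalFor (fun A : Subgroup Ω => Nat.card A)
    {A | A ≤ P ∧ ∀ x ∈ A, ∀ y ∈ A, x * y = y * x} (finite_subgroups_le.subset fun _ h => h.1)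
    ⟨⊥, bot_le, fun x hx y hy => by simp [Subgroup.mem_bot.mp hx, Subgroup.mem_bot.mp hy]⟩
  exact ⟨A, hA.1, hA.2, fun C h1 h2 =>
    (le_total (Nat.card C) (Nat.card A)).elim id (fun h => hmax ⟨h1, h2⟩ h)⟩

/-- The largest order of an abelian subgroup. -/
noncomputable def abRank (P : Subgroup Ω) : ℕ :=
  sSup ((fun A : Subgroup Ω => Nat.card A) '' {A : Subgroup Ω | A ≤ P ∧ ∀ x ∈ A, ∀ y ∈ A, x * y = y * x})

theorem abRank_eq (h : IsMaxAb P A) : abRank P = Nat.card A := by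
  refine IsGreatest.csSup_eq ⟨⟨A, ⟨h.le, h.comm⟩, rfl⟩, ?_⟩
  rintro _ ⟨C, hC, rfl⟩
  exact h.max C hC.1 hC.2

theorem isMaxAb_of_le (h : IsMaxAb Q A) (hAP : A ≤ P) (hPQ : P ≤ Q) : IsMaxAb P A :=
  ⟨hAP, h.comm, fun C h1 h2 => h.max C (h1.trans hPQ) h2⟩

theorem abRank_mono [Finite Q] (h : P ≤ Q) : abRank P ≤ abRank Q := by
  haveI := finite_of_le h
  obtain ⟨A, hA⟩ := exists_maxAb (P := P)
  obtain ⟨B, hB⟩ := exists_maxAb (P := Q)
  rw [abRank_eq hA, abRank_eq hB]
  exact hB.max A (hA.le.trans h) hA.comm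

theorem thompson_le : thompsonSubgroupAOf P ≤ P := Subgroup.map_subtype_le _

theorem thompson_mono [Finite Q] (h : P ≤ Q) (he : abRank P = abRank Q) :
    thompsonSubgroupAOf P ≤ thompsonSubgroupAOf Q := by
  refine thompsonA_le fun A hA => le_thompsonA ⟨hA.le.trans h, hA.comm, fun C h1 h2 => ?_⟩
  obtain ⟨B, hB⟩ := exists_maxAb (P := Q)
  rw [← abRank_eq hA, he, abRank_eq hB]
  exact hB.max C h1 h2

theorem thompson_eq_of_le [Finite Q] (hPQ : P ≤ Q) (h : ∀ A, IsMaxAb Q A → A ≤ P) :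
    thompsonSubgroupAOf P = thompsonSubgroupAOf Q ∧ abRank P = abRank Q := by
  obtain ⟨B, hB⟩ := exists_maxAb (P := Q)
  have he : abRank P = abRank Q := by
    rw [abRank_eq hB, abRank_eq (isMaxAb_of_le hB (h B hB) hPQ)]
  exact ⟨le_antisymm (thompson_mono hPQ he)
    (thompsonA_le fun A hA => le_thompsonA (isMaxAb_of_le hA (h A hA) hPQ)), he⟩

theorem thompson_idem [Finite P] :
    thompsonSubgroupAOf (thompsonSubgroupAOf P) = thompsonSubgroupAOf P ∧
      abRank (thompsonSubgroupAOf P) = abRank P :=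
  thompson_eq_of_le thompson_le fun _ hA => le_thompsonA hA

/-- The measure. -/
noncomputable def key (T P : Subgroup Ω) : ℕ :=
  abRank P * (Nat.card T + 1) + Nat.card (thompsonSubgroupAOf P)

variable {T : Subgroup Ω}

theorem key_mono [Finite T] (h : P ≤ Q) (hQ : Q ≤ T) : key T P ≤ key T Q := by
  haveI := finite_of_le hQ
  rcases (abRank_mono h).lt_or_eq with hlt | he
  · have h1 := card_le_of_le ((thompson_le.trans h).trans hQ : thompsonSubgroupAOf P ≤ T)
    have h2 := Nat.mul_le_mul_right (Nat.card T + 1) hlt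
    rw [Nat.succ_mul] at h2
    unfold key
    omega
  · haveI := finite_of_le (thompson_le (P := Q))
    unfold key
    rw [he]
    exact Nat.add_le_add_left (card_le_of_le (thompson_mono h he)) _

theorem key_lt [Finite T] (h : P ≤ Q) (hQ : Q ≤ T) (hA : IsMaxAb Q A) (hAP : ¬ A ≤ P) :
    key T P < key T Q := by
  haveI := finite_of_le hQ
  rcases (abRank_mono h).lt_or_eq with hlt | he
  · have h1 := card_le_of_le ((thompson_le.trans h).trans hQ : thompsonSubgroupAOf P ≤ T)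
    have h2 := Nat.mul_le_mul_right (Nat.card T + 1) hlt
    rw [Nat.succ_mul] at h2
    unfold key
    omega
  · haveI := finite_of_le (thompson_le (P := Q))
    unfold key
    rw [he]
    refine Nat.add_lt_add_left (card_lt_of_lt (lt_of_le_of_ne (thompson_mono h he) fun e => hAP ?_)) _
    exact (le_thompsonA hA).trans (e ▸ thompson_le)

section

variable {S : Subgroup Ω} [Finite S] {F : FusionSystem S} {f : Ω → Ω}

theorem isMaxAb_img (hf : Iso F f P Q) (hA : IsMaxAb P A) :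
    IsMaxAb Q (hf.mor.restrict hA.le).img := by
  obtain ⟨g, hg, hl, hr⟩ := hf.exists_symm
  refine ⟨hf.restrict_img_le hA.le, fun x hx y hy => ?_, fun C h1 h2 => ?_⟩
  · obtain ⟨u, hu, rfl⟩ := (Mor.mem_img _).mp hx
    obtain ⟨v, hv, rfl⟩ := (Mor.mem_img _).mp hy
    rw [← hf.mor.map_mul (hA.le hu) (hA.le hv), ← hf.mor.map_mul (hA.le hv) (hA.le hu),
      hA.comm u hu v hv]
  · rw [← (hf.restrict hA.le).card_eq, (hg.restrict h1).card_eq]
    refine hA.max _ (hg.restrict_img_le h1) fun x hx y hy => ?_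
    obtain ⟨u, hu, rfl⟩ := (Mor.mem_img _).mp hx
    obtain ⟨v, hv, rfl⟩ := (Mor.mem_img _).mp hy
    rw [← hg.mor.map_mul (h1 hu) (h1 hv), ← hg.mor.map_mul (h1 hv) (h1 hu), h2 u hu v hv]

theorem abRank_iso (hf : Iso F f P Q) : abRank Q = abRank P := by
  haveI := finite_of_le hf.dom_le
  obtain ⟨A, hA⟩ := exists_maxAb (P := P)
  rw [abRank_eq (isMaxAb_img hf hA), abRank_eq hA, (hf.restrict hA.le).card_eq]

theorem thompson_map (hf : Iso F f P Q) {x : Ω} (hx : x ∈ thompsonSubgroupAOf P) :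
    f x ∈ thompsonSubgroupAOf Q := by
  suffices h : thompsonSubgroupAOf P ≤
      ((thompsonSubgroupAOf Q).comap hf.mor.hom).map P.subtype by
    obtain ⟨v, hv, rfl⟩ := h hx
    exact hv
  exact thompsonA_le fun A hA a ha => ⟨⟨a, hA.le ha⟩,
    le_thompsonA (isMaxAb_img hf hA) ((Mor.mem_img _).mpr ⟨a, ha, rfl⟩), rfl⟩

theorem thompson_iso (hf : Iso F f P Q) :
    Iso F f (thompsonSubgroupAOf P) (thompsonSubgroupAOf Q) := by
  haveI := finite_of_le (thompson_le.trans hf.cod_le : thompsonSubgroupAOf Q ≤ S)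
  haveI := finite_of_le (thompson_le.trans hf.dom_le : thompsonSubgroupAOf P ≤ S)
  refine (hf.mor.restrict thompson_le).iso_of_card (fun x hx => thompson_map hf hx) ?_
  obtain ⟨g, hg, -⟩ := hf.exists_symm
  exact Nat.card_le_card_of_injective
    (fun x : thompsonSubgroupAOf Q => (⟨g x, thompson_map hg x.2⟩ : thompsonSubgroupAOf P))
    fun x y h => Subtype.ext (hg.mor.injOn (thompson_le x.2) (thompson_le y.2) (congrArg Subtype.val h))

theorem key_iso (hf : Iso F f P Q) : key T Q = key T P := by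
  rw [key, key, abRank_iso hf, (thompson_iso hf).card_eq]

end

/-- Outside `R` some largest abelian subgroup acts quadratically on a central abelian normal `B ≤ R`. -/
theorem exists_quadratic {p : ℕ} [Fact p.Prime] [Finite P] (hP : IsPGroup p P) (hRP : R ≤ P)
    (hBR : B ≤ R) (hB : ∀ x ∈ R, ∀ y ∈ B, x * y = y * x)
    (hBn : ∀ g ∈ P, ∀ b ∈ B, g * b * g⁻¹ ∈ B) (h : ∃ A, IsMaxAb P A ∧ ¬ A ≤ R) :
    ∃ A, IsMaxAb P A ∧ ¬ A ≤ R ∧ ∀ a ∈ A, ∀ b ∈ B, a * ⁅b, a⁆ = ⁅b, a⁆ * a := by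
  obtain ⟨A0, hA0, hA0R⟩ := h
  by_cases hcen : A0 ≤ Subgroup.centralizer (B : Set Ω)
  · refine ⟨A0, hA0, hA0R, fun a ha b hb => ?_⟩
    rw [show ⁅b, a⁆ = 1 from commutatorElement_eq_one_iff_mul_comm.mpr (hcen ha b hb), one_mul, mul_one]
  have hup : ∀ A' : Subgroup P, IsMaxAb (⊤ : Subgroup P) A' → IsMaxAb P (A'.map P.subtype) := by
    intro A' hA'
    refine ⟨Subgroup.map_subtype_le A', ?_, fun C h1 h2 => ?_⟩
    · rintro _ ⟨x, hx, rfl⟩ _ ⟨y, hy, rfl⟩
      rw [← map_mul, ← map_mul, hA'.comm x hx y hy]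
    · rw [Subgroup.card_map_of_injective P.subtype_injective,
        ← Nat.card_congr (Subgroup.subgroupOfEquivOfLe h1).toEquiv]
      exact hA'.max _ le_top fun x hx y hy => Subtype.ext (h2 x hx y hy)
  have hdown : IsMaxAb (⊤ : Subgroup P) (A0.subgroupOf P) := by
    refine ⟨le_top, fun x hx y hy => Subtype.ext (hA0.comm x hx y hy), fun C _ h2 => ?_⟩
    rw [Nat.card_congr (Subgroup.subgroupOfEquivOfLe hA0.le).toEquiv,
      ← Subgroup.card_map_of_injective P.subtype_injective (K := C)]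
    refine hA0.max _ (Subgroup.map_subtype_le C) ?_
    rintro _ ⟨x, hx, rfl⟩ _ ⟨y, hy, rfl⟩
    rw [← map_mul, ← map_mul, h2 x hx y hy]
  obtain ⟨A', hA', hA'C, hnorm⟩ := exists_normalized_offender (P := (⊤ : Subgroup P))
    (hP.to_subgroup ⊤) (V := B.subgroupOf P) le_top
    (fun x hx y hy => Subtype.ext (hB x (hBR hx) y hy))
    (fun g a ha => hBn g g.2 a ha)
    ⟨_, hdown, fun h => hcen fun a ha b hb => congrArg Subtype.val
      (h (show (⟨a, hA0.le ha⟩ : P) ∈ A0.subgroupOf P from ha) ⟨b, hRP (hBR hb)⟩ hb)⟩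
  refine ⟨_, hup A' hA', fun hle => hA'C fun a ha b hb => Subtype.ext
    ((hB _ (hle ⟨a, ha, rfl⟩) b hb).symm), ?_⟩
  rintro _ ⟨a, ha, rfl⟩ b hb
  have hbP : b ∈ P := hRP (hBR hb)
  have hn := (Subgroup.mem_normalizer_iff.mp (hnorm (show (⟨b, hbP⟩ : P) ∈ B.subgroupOf P from hb)) a).mp ha
  have hc : ⁅(⟨b, hbP⟩ : P), a⁆ ∈ A' := A'.mul_mem hn (A'.inv_mem ha)
  exact congrArg Subtype.val (hA'.comm a ha _ hc)

end Cfsg.Agent.Fusion.CentOdd
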