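/-
Cocycles of a finite group in an abelian `p`-group, `p` odd: quadratic vanishing and averaging.
-/
import Mathlib.GroupTheory.Transfer
import Mathlib.GroupTheory.PGroup
import Mathlib.GroupTheory.QuotientGroup.Basic
import Mathlib.GroupTheory.GroupAction.Period
import Mathlib.Algebra.BigOperators.Intervals
import Mathlib.FieldTheory.Finite.Basic

/-!
A cocycle that is trivial, modulo fixed elements, on a subgroup `M` of index prime to `p` is trivial
modulo fixed elements everywhere, as soon as an abelian group of quadratically acting elements fixes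
only the trivial coset of `M`.
-/

set_option autoImplicit false
set_option linter.style.haveILetI false
set_option linter.unusedSectionVars false

namespace Cfsg.Agent.Fusion.CentOdd

open MulAction

variable {G V : Type*} [Group G] [CommGroup V]

/-- `d` is a cocycle for the action `act`. -/
def IsCocycle (act : G →* MulAut V) (d : G → V) : Prop := ∀ g h, d (g * h) = d g * act g (d h)

variable {act : G →* MulAut V} {d : G → V}

theorem IsCocycle.map_one (hd : IsCocycle act d) : d 1 = 1 := by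
  have h := hd 1 1
  rw [mul_one, _root_.map_one, MulAut.one_apply] at h
  exact mul_eq_left.mp h.symm

theorem act_pow_quad {a : G} {w : V} (h : act a (w⁻¹ * act a w) = w⁻¹ * act a w) :
    ∀ i : ℕ, act (a ^ i) w = w * (w⁻¹ * act a w) ^ i
  | 0 => by simp
  | i + 1 => by
    rw [pow_succ', _root_.map_mul, MulAut.mul_apply, act_pow_quad h i, _root_.map_mul,
      _root_.map_pow, h, pow_succ', ← mul_assoc, mul_inv_cancel_left]

/-- The product along a free orbit of a quadratically acting element is trivial modulo fixed elements. -/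
theorem orbit_prod_mem {p : ℕ} (hp : Odd p) (U : Subgroup V) {a : G}
    (hU : ∀ u ∈ U, act a u = u) {w : V}
    (h : act a (w⁻¹ * act a w) = w⁻¹ * act a w) (hw : w ^ p ∈ U) :
    ∏ i ∈ Finset.range p, act (a ^ i) w ∈ U := by
  obtain ⟨m, hm⟩ := hp
  rw [Finset.prod_congr rfl fun i _ => act_pow_quad h i, Finset.prod_mul_distrib, Finset.prod_const,
    Finset.card_range, Finset.prod_pow_eq_pow_sum]
  refine U.mul_mem hw ?_
  have hsum : ∑ i ∈ Finset.range p, i = p * m := by
    have h2 := Finset.sum_range_id_mul_two p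
    have h3 : p - 1 = 2 * m := by omega
    rw [h3, ← mul_assoc, mul_comm p 2] at h2
    rw [mul_assoc] at h2
    omega
  rw [hsum, pow_mul, mul_pow, inv_pow, ← _root_.map_pow, hU _ hw, inv_mul_cancel, one_pow]
  exact U.one_mem

section

variable {p : ℕ} [hp : Fact p.Prime] {W : Type*} [CommGroup W] {X : Type*} [MulAction G X]

theorem prod_eq_one_of_free (f : X → W) {a : G}
    (h : ∀ q, a ^ p • q = q → a • q ≠ q → ∏ i ∈ Finset.range p, f (a ^ i • q) = 1) :
    ∀ s : Finset X, (∀ q ∈ s, a • q ∈ s) → (∀ q ∈ s, a ^ p • q = q ∧ a • q ≠ q) →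
      ∏ q ∈ s, f q = 1 := by
  classical
  intro s
  induction s using Finset.strongInduction with
  | _ s ih =>
  intro hinv hfree
  rcases s.eq_empty_or_nonempty with rfl | ⟨q, hq⟩
  · exact Finset.prod_empty
  obtain ⟨hq1, hq2⟩ := hfree q hq
  have hper : MulAction.period a q = p := by
    have h1 : MulAction.period a q ∣ p := MulAction.pow_smul_eq_iff_period_dvd.1 hq1
    rcases (Nat.dvd_prime hp.out).1 h1 with h | h
    · exact absurd (by simpa [h] using MulAction.pow_period_smul a q) hq2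
    · exact h
  have hinj : Set.InjOn (fun i : ℕ => a ^ i • q) (Finset.range p) := by
    suffices key : ∀ i j : ℕ, i ≤ j → j < p → a ^ i • q = a ^ j • q → i = j by
      intro i hi j hj he
      rcases le_total i j with h | h
      · exact key i j h (Finset.mem_range.1 hj) he
      · exact (key j i h (Finset.mem_range.1 hi) he.symm).symm
    intro i j hij hj he
    have : a ^ (j - i) • q = q := by
      refine MulAction.injective (a ^ i) ?_
      show a ^ i • a ^ (j - i) • q = a ^ i • q
      rw [← mul_smul, ← pow_add, Nat.add_sub_cancel' hij, he]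
    rw [MulAction.pow_smul_eq_iff_period_dvd, hper] at this
    have := Nat.eq_zero_of_dvd_of_lt this (by omega)
    omega
  set O := (Finset.range p).image fun i : ℕ => a ^ i • q with hO
  have hOs : O ⊆ s := by
    intro x hx
    obtain ⟨i, -, rfl⟩ := Finset.mem_image.1 hx
    clear hx
    induction i with
    | zero => simpa using hq
    | succ i ihi => rw [pow_succ', mul_smul]; exact hinv _ ihi
  have hOinv : ∀ x, a • x ∈ O → x ∈ O := by
    intro x hx
    obtain ⟨i, hi, he⟩ := Finset.mem_image.1 hx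
    have hi' := Finset.mem_range.1 hi
    rcases i with _ | i
    · refine Finset.mem_image.2 ⟨p - 1, Finset.mem_range.2 (by omega), ?_⟩
      refine MulAction.injective a ?_
      show a • a ^ (p - 1) • q = a • x
      rw [← mul_smul, ← pow_succ', Nat.sub_add_cancel hp.out.one_le, hq1, ← he, pow_zero, one_smul]
    · refine Finset.mem_image.2 ⟨i, Finset.mem_range.2 (by omega), ?_⟩
      exact MulAction.injective a (by
        show a • a ^ i • q = a • x
        rw [← mul_smul, ← pow_succ', he])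
  have hqO : q ∈ O := Finset.mem_image.2 ⟨0, Finset.mem_range.2 hp.out.pos, by simp⟩
  rw [← Finset.prod_sdiff hOs, Finset.prod_image hinj, h q hq1 hq2, mul_one]
  refine ih _ (Finset.sdiff_ssubset hOs ⟨q, hqO⟩) (fun x hx => ?_) fun x hx =>
    hfree x (Finset.mem_sdiff.1 hx).1
  obtain ⟨hx1, hx2⟩ := Finset.mem_sdiff.1 hx
  exact Finset.mem_sdiff.2 ⟨hinv x hx1, fun hh => hx2 (hOinv x hh)⟩

theorem prod_eq_one_of_abelian (f : X → W) {A : Subgroup G} (hA : IsPGroup p A)
    (hcomm : ∀ a ∈ A, ∀ b ∈ A, a * b = b * a)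
    (h : ∀ a ∈ A, ∀ q, a ^ p • q = q → a • q ≠ q → ∏ i ∈ Finset.range p, f (a ^ i • q) = 1) :
    ∀ s : Finset X, (∀ a ∈ A, ∀ q ∈ s, a • q ∈ s) → (∀ q ∈ s, ∃ a ∈ A, a • q ≠ q) →
      ∏ q ∈ s, f q = 1 := by
  classical
  intro s
  induction s using Finset.strongInduction with
  | _ s ih =>
  intro hinv hmove
  rcases s.eq_empty_or_nonempty with rfl | ⟨q, hq⟩
  · exact Finset.prod_empty
  obtain ⟨b, hb, hbq⟩ := hmove q hq
  obtain ⟨k, hk⟩ := hA ⟨b, hb⟩
  have hk' : b ^ p ^ k = 1 := congrArg Subtype.val hk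
  have hex : ∃ i, b ^ p ^ i • q = q := ⟨k, by rw [hk', one_smul]⟩
  obtain ⟨i, hi⟩ : ∃ i, Nat.find hex = i + 1 := Nat.exists_eq_succ_of_ne_zero fun h0 => hbq (by
    have := Nat.find_spec hex
    rwa [h0, pow_zero, pow_one] at this)
  set a := b ^ p ^ i
  have ha : a ∈ A := A.pow_mem hb _
  have hap : a ^ p • q = q := by
    have := Nat.find_spec hex
    rwa [hi, pow_succ, pow_mul] at this
  have hane : a • q ≠ q := Nat.find_min hex (by omega)
  set s1 := s.filter fun x => a ^ p • x = x ∧ a • x ≠ x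
  have hs1 : ∀ c ∈ A, ∀ x, c • x ∈ s1 ↔ (c • x ∈ s ∧ a ^ p • x = x ∧ a • x ≠ x) := by
    intro c hc x
    rw [Finset.mem_filter, ← mul_smul, ← mul_smul, hcomm _ (A.pow_mem ha p) _ hc, hcomm _ ha _ hc,
      mul_smul, mul_smul, (MulAction.injective c).eq_iff, (MulAction.injective c).ne_iff]
  rw [← Finset.prod_sdiff (Finset.filter_subset (fun x => a ^ p • x = x ∧ a • x ≠ x) s)]
  rw [prod_eq_one_of_free f (h a ha) s1
    (fun x hx => (hs1 a ha x).2 ⟨hinv a ha x (Finset.mem_filter.1 hx).1, (Finset.mem_filter.1 hx).2⟩)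
    (fun x hx => (Finset.mem_filter.1 hx).2), mul_one]
  refine ih _ (Finset.sdiff_ssubset (Finset.filter_subset _ _) ⟨q, Finset.mem_filter.2 ⟨hq, hap, hane⟩⟩)
    (fun c hc x hx => ?_) fun x hx => hmove x (Finset.mem_sdiff.1 hx).1
  obtain ⟨hx1, hx2⟩ := Finset.mem_sdiff.1 hx
  exact Finset.mem_sdiff.2 ⟨hinv c hc x hx1,
    fun hh => hx2 (Finset.mem_filter.2 ⟨hx1, ((hs1 c hc x).1 hh).2⟩)⟩

end

variable [Finite G] {p : ℕ} [hp : Fact p.Prime]

theorem mem_of_pow_mem_of_coprime {U : Subgroup V} {v : V} {n : ℕ} (hn : ¬ p ∣ n)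
    (h1 : v ^ n ∈ U) (h2 : v ^ p ∈ U) : v ∈ U := by
  have h : (v : V ⧸ U) = 1 := by
    have e1 : (v : V ⧸ U) ^ n = 1 := by rw [← QuotientGroup.mk_pow, QuotientGroup.eq_one_iff]; exact h1
    have e2 : (v : V ⧸ U) ^ p = 1 := by rw [← QuotientGroup.mk_pow, QuotientGroup.eq_one_iff]; exact h2
    have := pow_gcd_eq_one.mpr ⟨e2, e1⟩
    rwa [(hp.out.coprime_iff_not_dvd.2 hn : Nat.gcd p n = 1), pow_one] at this
  exact (QuotientGroup.eq_one_iff v).1 h

/-- Quadratic vanishing, with a bound on the exponent. -/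
theorem vanish_aux (hodd : Odd p) (U : Subgroup V) (hU : ∀ g, ∀ u ∈ U, act g u = u)
    (M : Subgroup G) (hM : ¬ p ∣ M.index) (A : Subgroup G) (hA : IsPGroup p A) (hAM : A ≤ M)
    (hcomm : ∀ a ∈ A, ∀ b ∈ A, a * b = b * a)
    (hquad : ∀ a ∈ A, ∀ v, act a (v⁻¹ * act a v) = v⁻¹ * act a v)
    (hfix : ∀ g, (∀ a ∈ A, g⁻¹ * a * g ∈ M) → g ∈ M) :
    ∀ n : ℕ, ∀ d : G → V, IsCocycle act d → (∀ m ∈ M, d m ∈ U) → (∀ g, d g ^ p ^ n ∈ U) →
      ∀ g, d g ∈ U := by
  classical
  letI : Fintype (G ⧸ M) := Fintype.ofFinite _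
  intro n
  induction n with
  | zero => intro d _ _ h g; simpa using h g
  | succ n ih =>
    intro d hd hdM hn g
    have hd' : IsCocycle act (fun x => d x ^ p) := fun x y => by
      show d (x * y) ^ p = d x ^ p * act x (d y ^ p)
      rw [hd, mul_pow, _root_.map_pow]
    have hpow : ∀ x, d x ^ p ∈ U := ih _ hd' (fun m hm => U.pow_mem (hdM m hm) p) fun x => by
      rw [← pow_mul, ← pow_succ']; exact hn x
    have hwd : ∀ x, ∀ m ∈ M, (d (x * m) : V ⧸ U) = d x := fun x m hm => by
      rw [hd, hU x _ (hdM m hm), QuotientGroup.mk_mul, (QuotientGroup.eq_one_iff _).2 (hdM m hm), mul_one]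
    set f : G ⧸ M → V ⧸ U := fun q => (d q.out : V ⧸ U) with hf
    have hfmk : ∀ x : G, f x = d x := fun x => by
      obtain ⟨m, hm⟩ := QuotientGroup.mk_out_eq_mul M x
      simp only [hf]
      rw [hm]
      exact hwd x m m.2
    have hprod : ∀ g : G, ∏ q, f q = ((d g ^ M.index * act g (∏ q : G ⧸ M, d q.out) : V) : V ⧸ U) := by
      intro g
      rw [← Equiv.prod_comp (MulAction.toPerm g) f]
      have : ∀ q : G ⧸ M, f (g • q) = ((d g * act g (d q.out) : V) : V ⧸ U) := fun q => by
        conv_lhs => rw [← QuotientGroup.out_eq' q, MulAction.Quotient.smul_coe, smul_eq_mul, hfmk]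
        rw [hd]
      simp only [MulAction.toPerm_apply, this]
      rw [← QuotientGroup.mk_prod, Finset.prod_mul_distrib, _root_.map_prod, Finset.prod_const,
        Finset.card_univ, Subgroup.index_eq_card, Nat.card_eq_fintype_card]
    have hone : ∏ q, f q = 1 := by
      rw [← Finset.prod_filter_mul_prod_filter_not Finset.univ (fun q => ∃ a ∈ A, a • q ≠ q),
        prod_eq_one_of_abelian f hA hcomm ?_ _
          (fun a ha q hq => ?_) (fun q hq => (Finset.mem_filter.1 hq).2), one_mul]
      · refine Finset.prod_eq_one fun q hq => ?_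
        have hq' := (Finset.mem_filter.1 hq).2
        push Not at hq'
        obtain ⟨x, rfl⟩ := QuotientGroup.mk_surjective q
        have hx : x ∈ M := hfix x fun a ha => by
          have := (QuotientGroup.eq (s := M)).1 (hq' a ha).symm
          simpa only [smul_eq_mul, ← mul_assoc] using this
        rw [hfmk]
        exact (QuotientGroup.eq_one_iff _).2 (hdM x hx)
      · intro a ha q _ _
        obtain ⟨x, rfl⟩ := QuotientGroup.mk_surjective q
        have hval : ∀ i : ℕ, f (a ^ i • (x : G ⧸ M)) = ((act (a ^ i) (d x) : V) : V ⧸ U) := fun i => by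
          rw [MulAction.Quotient.smul_coe, hfmk, smul_eq_mul, hd, QuotientGroup.mk_mul,
            (QuotientGroup.eq_one_iff _).2 (hdM _ (hAM (A.pow_mem ha i))), one_mul]
        rw [Finset.prod_congr rfl fun i _ => hval i, ← QuotientGroup.mk_prod]
        exact (QuotientGroup.eq_one_iff _).2
          (orbit_prod_mem hodd U (hU a) (hquad a ha (d x)) (hpow x))
      · obtain ⟨b, hb, hbq⟩ := (Finset.mem_filter.1 hq).2
        refine Finset.mem_filter.2 ⟨Finset.mem_univ _, b, hb, fun e => hbq ?_⟩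
        rw [← mul_smul, hcomm b hb a ha, mul_smul] at e
        exact MulAction.injective a e
    have h1 : (∏ q : G ⧸ M, d q.out) ∈ U := by
      rw [← QuotientGroup.eq_one_iff, QuotientGroup.mk_prod]
      exact hone
    have h2 := (QuotientGroup.eq_one_iff _).1 ((hprod g).symm.trans hone)
    rw [hU g _ h1, U.mul_mem_cancel_right h1] at h2
    exact mem_of_pow_mem_of_coprime hM h2 (hpow g)

/-- Quadratic vanishing. -/
theorem vanish [Finite V] (hV : IsPGroup p V) (hodd : Odd p) (U : Subgroup V)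
    (hU : ∀ g, ∀ u ∈ U, act g u = u) (hd : IsCocycle act d)
    (M : Subgroup G) (hM : ¬ p ∣ M.index) (hdM : ∀ m ∈ M, d m ∈ U)
    (A : Subgroup G) (hA : IsPGroup p A) (hAM : A ≤ M)
    (hcomm : ∀ a ∈ A, ∀ b ∈ A, a * b = b * a)
    (hquad : ∀ a ∈ A, ∀ v, act a (v⁻¹ * act a v) = v⁻¹ * act a v)
    (hfix : ∀ g, (∀ a ∈ A, g⁻¹ * a * g ∈ M) → g ∈ M) (g : G) : d g ∈ U := by
  obtain ⟨n, hn⟩ := IsPGroup.iff_card.1 hV
  exact vanish_aux hodd U hU M hM A hA hAM hcomm hquad hfix n d hd hdM
    (fun x => by rw [← hn, pow_card_eq_one']; exact U.one_mem) g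

/-- Averaging: a cocycle with fixed values on a subgroup of index prime to `p` differs from a
coboundary by a fixed-valued map; that map is trivial on an element all whose relevant conjugates
have trivial value. -/
theorem average [Finite V] (hV : IsPGroup p V) (U : Subgroup V) (hU : ∀ g, ∀ u ∈ U, act g u = u)
    (hd : IsCocycle act d) (H : Subgroup G) (hH : ¬ p ∣ H.index) (hdH : ∀ h ∈ H, d h ∈ U)
    (Y : Subgroup V) (hdY : ∀ g, d g ∈ Y) :
    ∃ z ∈ Y, ∀ g : G, ∃ u ∈ U, d g * act g z = z * u ∧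
      ((∀ (k : ℕ) (x : G), x⁻¹ * g ^ k * x ∈ H → d (x⁻¹ * g ^ k * x) = 1) → u = 1) := by
  classical
  letI : Fintype (G ⧸ H) := Fintype.ofFinite _
  let ψ : H →* U :=
    { toFun := fun h => ⟨d h, hdH h h.2⟩
      map_one' := Subtype.ext hd.map_one
      map_mul' := fun a b => Subtype.ext (by
        show d ((a : G) * b) = d a * d b
        rw [hd, hU _ _ (hdH b b.2)]) }
  set v := ∏ q : G ⧸ H, d q.out with hv
  have hmem : ∀ (g : G) (q : G ⧸ H), (g • q).out⁻¹ * (g * q.out) ∈ H := fun g q => by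
    rw [← QuotientGroup.eq, QuotientGroup.out_eq']
    conv_lhs => rw [← QuotientGroup.out_eq' q]
    rfl
  have htr : ∀ g : G, d g ^ H.index * act g v = v * ((MonoidHom.transfer ψ g : U) : V) := by
    intro g
    have e : MonoidHom.transfer ψ g = ∏ q : G ⧸ H, ψ ⟨_, hmem g q⟩ := by
      let T : H.LeftTransversal := ⟨Set.range (Quotient.out : G ⧸ H → G),
        Subgroup.isComplement_range_left QuotientGroup.out_eq'⟩
      rw [MonoidHom.transfer_def ψ T g, ← Equiv.prod_comp (MulAction.toPerm g⁻¹)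
        (fun q => ψ ⟨_, hmem g q⟩)]
      refine Finset.prod_congr (Finset.ext fun _ => by simp) fun q _ => congrArg ψ (Subtype.ext ?_)
      have ha : ∀ r : G ⧸ H, (T.2.leftQuotientEquiv r : G) = r.out := fun r =>
        Subgroup.IsComplement.leftQuotientEquiv_apply QuotientGroup.out_eq' r
      show (T.2.leftQuotientEquiv q : G)⁻¹ * ((g • T).2.leftQuotientEquiv q : G) =
        (g • g⁻¹ • q).out⁻¹ * (g * (g⁻¹ • q).out)
      rw [Subgroup.smul_apply_eq_smul_apply_inv_smul, ha, ha, smul_inv_smul, smul_eq_mul]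
    rw [e, SubmonoidClass.coe_finset_prod]
    have : ∀ q : G ⧸ H, d g * act g (d q.out) = d (g • q).out * (ψ ⟨_, hmem g q⟩ : V) := fun q => by
      show _ = _ * d ((g • q).out⁻¹ * (g * q.out))
      rw [← hd]
      conv_rhs => rw [← hU (g • q).out _ (hdH _ (hmem g q)), ← hd, mul_inv_cancel_left]
    rw [Subgroup.index_eq_card, Nat.card_eq_fintype_card, ← Finset.card_univ, hv, _root_.map_prod,
      ← Finset.prod_const, ← Finset.prod_mul_distrib, Finset.prod_congr rfl fun q _ => this q,
      Finset.prod_mul_distrib]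
    congr 1
    exact Fintype.prod_equiv (MulAction.toPerm g) _ _ fun _ => rfl
  obtain ⟨N, hN⟩ := IsPGroup.iff_card.1 hV
  have hco : Nat.Coprime H.index (p ^ N) :=
    (Nat.Coprime.pow_left N (hp.out.coprime_iff_not_dvd.2 hH)).symm
  obtain ⟨m, hm⟩ : ∃ m, ∀ x : V, (x ^ H.index) ^ m = x := by
    have ht : 0 < Nat.totient (p ^ N) := Nat.totient_pos.2 (pow_pos hp.out.pos N)
    refine ⟨H.index ^ (Nat.totient (p ^ N) - 1), fun x => ?_⟩
    rw [← pow_mul, ← pow_succ', Nat.sub_add_cancel ht]
    conv_rhs => rw [← pow_one x]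
    exact pow_eq_pow_iff_modEq.2 ((Nat.ModEq.pow_totient hco).of_dvd (hN ▸ orderOf_dvd_natCard x))
  refine ⟨v ^ m, Y.pow_mem (Subgroup.prod_mem _ fun q _ => hdY _) m, fun g =>
    ⟨((MonoidHom.transfer ψ g : U) : V) ^ m, U.pow_mem (SetLike.coe_mem _) m, ?_, fun hk => ?_⟩⟩
  · have h := congrArg (· ^ m) (htr g)
    simp only [mul_pow, hm] at h
    rw [_root_.map_pow]
    exact h
  · suffices MonoidHom.transfer ψ g = 1 by rw [this]; simp
    haveI : Fintype (Quotient (MulAction.orbitRel (Subgroup.zpowers g) (G ⧸ H))) := Fintype.ofFinite _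
    rw [MonoidHom.transfer_eq_prod_quotient_orbitRel_zpowers_quot]
    exact Finset.prod_eq_one fun q _ => Subtype.ext (hk _ _
      (QuotientGroup.out_conj_pow_minimalPeriod_mem H g q.out))

end Cfsg.Agent.Fusion.CentOdd
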