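/-
Relative extensions at a centric subgroup: discrepancies of two extensions are fixed, and the two
cocycle lemmas applied to them.
-/
import Cfsg.Agent.Fusion.CentEMax
import Cfsg.Agent.Fusion.CentOdd.Cocycle
import Cfsg.Agent.Fusion.CentOdd.AbKey
set_option autoImplicit false
set_option linter.style.haveILetI false
set_option linter.unusedSectionVars false
set_option maxHeartbeats 1000000

namespace Cfsg.Agent.Fusion.CentOdd

open scoped commutatorElement
open Cfsg Cfsg.FusionSystem Cfsg.Agent.Fusion.SatCrit Cfsg.Agent.Fusion.WeakResidual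
open Cfsg.Agent.Fusion.CharSys (af af_coe af_apply af_mem af_mul af_one af_inv_self af_self_inv)
open Cfsg.Agent.Fusion.CentFix (cent_mor exists_pprime_power iterate_agree iterate_rel)
open Cfsg.Agent.Fusion.CentE (Loc Rel Ctx Fix)

variable {Ω : Type*} [Group Ω] {S T : Subgroup Ω} {F : FusionSystem S} {E : FusionSystem T}
  {p : ℕ} {P Q R : Subgroup Ω} {φ φ' χ ψ f : Ω → Ω} {y z z₁ z₂ : Ω}

section Rel

variable (L : Loc F T p R) [Finite S]
include L

theorem rel_mapsR (hφ : Rel F T R φ) : Iso F φ R R := by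
  haveI := finite_of_le L.hRS
  exact (hφ.1.mor.restrict le_sup_left).iso_of_card hφ.2.1 le_rfl

theorem rel_mapsV (hφ : Rel F T R φ) (hz : z ∈ centralizerIn T R) : φ z ∈ centralizerIn T R :=
  ⟨L.hRT (hφ.2.1 _ (L.hZR hz)), ((rel_mapsR L hφ).map_centralizer (hφ.1.mor.restrict le_sup_left)
    le_rfl (fun _ _ => rfl) (L.hZR hz) ⟨L.hTS hz.1, hz.2⟩).2⟩

theorem rel_comp (hφ : Rel F T R φ) (hψ : Rel F T R ψ) : Rel F T R (φ ∘ ψ) := by
  refine ⟨hψ.1.comp hφ.1, fun x hx => hφ.2.1 _ (hψ.2.1 x hx), fun x hx => ?_⟩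
  have hz := hψ.2.2 x hx
  show x⁻¹ * φ (ψ x) ∈ _
  have h : φ (ψ x) = φ x * φ (x⁻¹ * ψ x) := by
    rw [← hφ.1.mor.map_mul (Subgroup.mem_sup_right hx) (Subgroup.mem_sup_left (L.hZR hz)),
      mul_inv_cancel_left]
  rw [h, ← mul_assoc]
  exact mul_mem (hφ.2.2 x hx) (rel_mapsV L hφ hz)

theorem rel_symm (hφ : Rel F T R φ) (hφ' : Iso F φ' (R ⊔ centralizerIn S R) (R ⊔ centralizerIn S R))
    (hl : ∀ x ∈ R ⊔ centralizerIn S R, φ' (φ x) = x) (hr : ∀ x ∈ R ⊔ centralizerIn S R, φ (φ' x) = x) :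
    Rel F T R φ' := by
  refine ⟨hφ', fun x hx => ?_, fun x hx => (L.relK hφ hφ' hl hr hx).2⟩
  obtain ⟨v, hv, rfl⟩ := (rel_mapsR L hφ).surj hx
  rw [hl v (Subgroup.mem_sup_left hv)]; exact hv

variable [Fact p.Prime]

/-- The discrepancy of two extensions over `y` of the same automorphism is fixed by every relative
extension. -/
theorem eta_fixed (hy : y ∈ centralizerIn S R) (hχ : Mor F (R ⊔ Subgroup.zpowers y) χ)
    (hψ : Mor F (R ⊔ Subgroup.zpowers y) ψ) (e : ∀ x ∈ R, χ x = ψ x) (hψR : ∀ x ∈ R, ψ x ∈ R)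
    (hz₁ : z₁ ∈ centralizerIn T R) (hz₂ : z₂ ∈ centralizerIn T R) (hχy : χ y = y * z₁)
    (hψy : ψ y = y * z₂) (hφ : Rel F T R φ) : φ (z₁ * z₂⁻¹) = z₁ * z₂⁻¹ := by
  obtain ⟨CR, hCR⟩ := exists_centralizerSystem F R L.hRS
  obtain ⟨φ', hφ', hφl', hφr'⟩ := hφ.1.exists_symm
  haveI := finite_of_le L.hRS
  haveI : Finite (centralizerIn S R) := finite_of_le centralizerIn_le
  set A := centralizerIn T R ⊔ Subgroup.zpowers y with hAdef
  set w := z₁ * z₂⁻¹ with hw
  have hwV : w ∈ centralizerIn T R := mul_mem hz₁ (inv_mem hz₂)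
  have hZA : centralizerIn T R ≤ A := le_sup_left
  have hAK : A ≤ centralizerIn S R := sup_le L.zK (Subgroup.zpowers_le.mpr hy)
  have hyA : y ∈ A := Subgroup.mem_sup_right (Subgroup.mem_zpowers y)
  have hAY : A ⊔ R ≤ R ⊔ Subgroup.zpowers y :=
    sup_le (sup_le (L.hZR.trans le_sup_left) le_sup_right) le_sup_left
  obtain ⟨ψ', hψ', hψl, hψr⟩ := (hψ.restrict hAY).toIso.exists_symm
  set I := (hψ.restrict hAY).img
  have hRR : Iso F ψ R R := (hψ.restrict le_sup_left).iso_of_card hψR le_rfl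
  have hRimg : ∀ x ∈ R, x ∈ I ∧ χ (ψ' x) = x := fun x hx => by
    obtain ⟨v, hv, rfl⟩ := hRR.surj hx
    refine ⟨(Mor.mem_img _).mpr ⟨v, Subgroup.mem_sup_right hv, rfl⟩, ?_⟩
    rw [hψl v (Subgroup.mem_sup_right hv), e v hv]
  have hyzI : y * z₂ ∈ I := (Mor.mem_img _).mpr ⟨y, Subgroup.mem_sup_left hyA, hψy⟩
  have hyI : y ∈ I := by
    have := I.mul_mem hyzI (I.inv_mem (hRimg _ (L.hZR hz₂)).1)
    rwa [mul_inv_cancel_right] at this
  have hle : A ⊔ R ≤ I := sup_le (sup_le (fun x hx => (hRimg x (L.hZR hx)).1)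
    (Subgroup.zpowers_le.mpr hyI)) fun x hx => (hRimg x hx).1
  have hm : Mor F (A ⊔ R) (χ ∘ ψ') := (hψ'.mor.restrict hle).comp hχ
    fun x hx => hAY (hψ'.mapsTo (hle hx))
  have hηy : χ (ψ' y) = y * w := by
    have h1 : χ (ψ' (y * z₂)) = y * z₁ := by rw [← hψy, hψl y (Subgroup.mem_sup_left hyA), hχy]
    have h2 : χ (ψ' (y * z₂)) = χ (ψ' y) * χ (ψ' z₂) :=
      hm.map_mul (Subgroup.mem_sup_left hyA) (Subgroup.mem_sup_right (L.hZR hz₂))
    rw [h1, (hRimg _ (L.hZR hz₂)).2] at h2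
    rw [hw, ← mul_assoc, h2, mul_inv_cancel_right]
  have hmA : ∀ x ∈ A, χ (ψ' x) ∈ A := (hm.restrict le_sup_left).map_sup
    (fun x hx => Subgroup.mem_sup_left (by
      show χ (ψ' x) ∈ centralizerIn T R
      rw [(hRimg x (L.hZR hx)).2]; exact hx))
    (fun x hx => by
      obtain ⟨n, rfl⟩ := Subgroup.mem_zpowers_iff.mp hx
      have h := map_zpow (hm.restrict (le_sup_left : A ≤ A ⊔ R)).hom (⟨y, hyA⟩ : A) n
      rw [Mor.hom_apply, Mor.hom_apply] at h
      show χ (ψ' (y ^ n)) ∈ A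
      rw [show χ (ψ' (y ^ n)) = (χ (ψ' y)) ^ n from h, hηy]
      exact zpow_mem (mul_mem hyA (hZA hwV)) n)
  have hηi : Iso CR (χ ∘ ψ') A A := by
    haveI := finite_of_le hAK
    exact ((cent_mor hCR).mpr ⟨hAK, fun x hx => hAK (hmA x hx), _, hm, fun _ _ => rfl,
      fun x hx => (hRimg x hx).2⟩).iso_of_card hmA le_rfl
  have hηr : ∀ x ∈ A, x⁻¹ * (χ ∘ ψ') x ∈ centralizerIn T R := by
    intro x hx
    have hn : Subgroup.zpowers y ≤ Subgroup.normalizer ((centralizerIn T R : Subgroup Ω) : Set Ω) :=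
      Subgroup.zpowers_le.mpr (Subgroup.mem_normalizer_iff.mpr fun v => by
        constructor
        · intro hv
          rw [← L.comm hy hv, mul_inv_cancel_right]; exact hv
        · intro hv
          have h := L.comm hy hv
          rw [inv_mul_cancel_right] at h
          rw [← mul_left_cancel h] at hv
          exact hv)
    have hx2 : x ∈ ((centralizerIn T R ⊔ Subgroup.zpowers y : Subgroup Ω) : Set Ω) := hx
    rw [sup_comm, Subgroup.coe_mul_of_left_le_normalizer_right _ _ hn] at hx2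
    obtain ⟨b, hb, c, hc, rfl⟩ := hx2
    obtain ⟨n, rfl⟩ := Subgroup.mem_zpowers_iff.mp hb
    have hbA : y ^ n ∈ A := zpow_mem hyA n
    show (y ^ n * c)⁻¹ * (χ ∘ ψ') (y ^ n * c) ∈ centralizerIn T R
    rw [hηi.mor.map_mul hbA (hZA hc), L.hfix hCR hηi.mor hZA c hc]
    have h := map_zpow hηi.mor.hom (⟨y, hyA⟩ : A) n
    rw [Mor.hom_apply, Mor.hom_apply] at h
    rw [show (χ ∘ ψ') (y ^ n) = ((χ ∘ ψ') y) ^ n from h, show (χ ∘ ψ') y = y * w from hηy,
      (show Commute y w from (L.comm hy hwV).symm).mul_zpow n,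
      show (y ^ n * c)⁻¹ * (y ^ n * w ^ n * c) = c⁻¹ * w ^ n * c by group]
    exact mul_mem (mul_mem (inv_mem hc) (zpow_mem hwV n)) hc
  have h := L.commute hCR hφ hφ' hφl' hφr' hZA hηi hηr y hyA
  obtain ⟨u, hu, hφy⟩ : ∃ u ∈ centralizerIn T R, φ y = y * u :=
    ⟨_, hφ.2.2 y hy, (mul_inv_cancel_left _ _).symm⟩
  rw [show (χ ∘ ψ') y = y * w from hηy, hφ.1.mor.map_mul (Subgroup.mem_sup_right hy)
      (Subgroup.mem_sup_left (L.hZR hwV)), hφy, hηi.mor.map_mul hyA (hZA hu),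
    show (χ ∘ ψ') y = y * w from hηy, L.hfix hCR hηi.mor hZA u hu, mul_assoc, mul_assoc] at h
  have h' := mul_left_cancel h
  rw [L.comm (L.zK hu) hwV] at h'
  exact mul_left_cancel h'

/-- A relative map of order prime to `p` moving `y` by a fixed element fixes `y`. -/
theorem fix_of_fixed_diff (hy : y ∈ centralizerIn S R) (hφ : Rel F T R φ) {l : ℕ} (hl : l.Coprime p)
    (hφl : ∀ x ∈ R ⊔ centralizerIn S R, φ^[l] x = x) (hz : z ∈ centralizerIn T R)
    (hφy : φ y = y * z) (hφz : φ z = z) : φ y = y := by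
  have hit : ∀ n : ℕ, φ^[n] y = y * z ^ n := by
    intro n
    induction n with
    | zero => simp
    | succ n ih =>
      rw [Function.iterate_succ_apply', ih, hφ.1.mor.map_mul (Subgroup.mem_sup_right hy)
        (Subgroup.mem_sup_right (pow_mem (L.zK hz) n)),
        hφ.1.mor.map_pow (Subgroup.mem_sup_right (L.zK hz)), hφy, hφz, pow_succ', mul_assoc]
  have hzl : z ^ l = 1 := by
    have := hit l
    rw [hφl y (Subgroup.mem_sup_right hy)] at this
    exact mul_left_cancel (this.symm.trans (mul_one y).symm)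
  rw [hφy, CentE.eq_one_of_coprime_pow L.hS (L.zK hz).1 hl hzl, mul_one]

end Rel

/-- The group of relative extensions of automorphisms in `E`. -/
noncomputable def relGrp (F : FusionSystem S) (E : FusionSystem T) (R : Subgroup Ω) :
    Subgroup (MulAut ↥(R ⊔ centralizerIn S R)) :=
  Subgroup.closure {α | Rel F T R (af α) ∧ ∃ π ∈ E.autGroup R, ∀ x : R, af α (x : Ω) = ((π x : R) : Ω)}

section Grp

variable (L : Loc F T p R) [Finite S]
include L

theorem rel_congr (h : Rel F T R φ) (e : ∀ x ∈ R ⊔ centralizerIn S R, φ x = ψ x) : Rel F T R ψ :=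
  ⟨h.1.congr e, fun x hx => e x (Subgroup.mem_sup_left hx) ▸ h.2.1 x hx,
    fun x hx => e x (Subgroup.mem_sup_right hx) ▸ h.2.2 x hx⟩

theorem mem_relGrp {α : MulAut ↥(R ⊔ centralizerIn S R)} (h : α ∈ relGrp F E R) :
    Rel F T R (af α) ∧ ∃ π ∈ E.autGroup R, ∀ x : R, af α (x : Ω) = ((π x : R) : Ω) := by
  have hW : R ⊔ centralizerIn S R ≤ S := sup_le L.hRS centralizerIn_le
  induction h using Subgroup.closure_induction with
  | mem α hα => exact hα
  | one =>
    refine ⟨rel_congr L (⟨Iso.refl hW, fun x hx => hx, fun x _ => ?_⟩ : Rel F T R id)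
      (fun x hx => (af_one hx).symm), 1, one_mem _, fun x => af_one (Subgroup.mem_sup_left x.2)⟩
    show x⁻¹ * x ∈ _
    rw [inv_mul_cancel]; exact one_mem _
  | mul α β _ _ iha ihb =>
    obtain ⟨hα, π, hπ, eπ⟩ := iha
    obtain ⟨hβ, π', hπ', eπ'⟩ := ihb
    refine ⟨rel_congr L (rel_comp L hα hβ) (fun x hx => (af_mul α β hx).symm), π * π',
      mul_mem hπ hπ', fun x => ?_⟩
    rw [af_mul α β (Subgroup.mem_sup_left x.2), eπ', eπ (π' x), MulAut.mul_apply]
  | inv α _ iha =>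
    obtain ⟨hα, π, hπ, eπ⟩ := iha
    obtain ⟨g, hg, hl, hr⟩ := hα.1.exists_symm
    refine ⟨rel_congr L (rel_symm L hα hg hl hr) (fun x hx => ?_), π⁻¹, inv_mem hπ, fun x => ?_⟩
    · rw [← af_self_inv α hx, hl _ (af_mem α⁻¹ hx), af_self_inv α hx]
    · have h := eπ (π⁻¹ x)
      rw [MulAut.apply_inv_self] at h
      rw [← h, af_inv_self α (Subgroup.mem_sup_left (SetLike.coe_mem _))]

theorem exists_relGrp (hφ : Rel F T R φ) {π : MulAut R} (hπ : π ∈ E.autGroup R)
    (e : ∀ x : R, φ x = ((π x : R) : Ω)) :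
    ∃ α ∈ relGrp F E R, ∀ x ∈ R ⊔ centralizerIn S R, af α x = φ x := by
  have he : ∀ x ∈ R ⊔ centralizerIn S R, af (hφ.1.equiv : MulAut _) x = φ x := fun x hx =>
    (af_apply _ hx).trans rfl
  exact ⟨hφ.1.equiv, Subgroup.subset_closure ⟨rel_congr L hφ fun x hx => (he x hx).symm, π, hπ,
    fun x => (he _ (Subgroup.mem_sup_left x.2)).trans (e x)⟩, he⟩

/-- The restriction of an element of `relGrp` to `R`. -/
noncomputable def resHom : relGrp F E R →* MulAut R where
  toFun α := (rel_mapsR L (mem_relGrp L α.2).1).equiv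
  map_one' := MulEquiv.ext fun x => Subtype.ext (af_one (Subgroup.mem_sup_left x.2))
  map_mul' α β := MulEquiv.ext fun x => Subtype.ext (af_mul _ _ (Subgroup.mem_sup_left x.2))

theorem resHom_val (α : relGrp F E R) (x : R) :
    ((resHom (E := E) L α x : R) : Ω) = af (α : MulAut ↥(R ⊔ centralizerIn S R)) x := rfl

theorem resHom_mem (α : relGrp F E R) : resHom (E := E) L α ∈ E.autGroup R := by
  obtain ⟨-, π, hπ, e⟩ := mem_relGrp L α.2
  rw [show resHom (E := E) L α = π from MulEquiv.ext fun x => Subtype.ext (e x)]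
  exact hπ

/-- The action on `C_T(R)`. -/
noncomputable def vHom : relGrp F E R →* MulAut ↥(centralizerIn T R) where
  toFun α :=
    haveI : Finite ↥(centralizerIn T R) := finite_of_le (L.zK.trans centralizerIn_le)
    (((mem_relGrp L α.2).1.1.mor.restrict (L.hZR.trans le_sup_left)).iso_of_card
      (fun _ hx => rel_mapsV L (mem_relGrp L α.2).1 hx) le_rfl).equiv
  map_one' := MulEquiv.ext fun x => Subtype.ext (af_one (Subgroup.mem_sup_left (L.hZR x.2)))
  map_mul' α β := MulEquiv.ext fun x => Subtype.ext (af_mul _ _ (Subgroup.mem_sup_left (L.hZR x.2)))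

theorem vHom_val (α : relGrp F E R) (x : centralizerIn T R) :
    ((vHom (E := E) L α x : centralizerIn T R) : Ω) = af (α : MulAut ↥(R ⊔ centralizerIn S R)) x := rfl

/-- The displacement of `y`. -/
noncomputable def dMap (hy : y ∈ centralizerIn S R) (α : relGrp F E R) : centralizerIn T R :=
  ⟨y⁻¹ * af (α : MulAut ↥(R ⊔ centralizerIn S R)) y, (mem_relGrp L α.2).1.2.2 y hy⟩

theorem dMap_val (hy : y ∈ centralizerIn S R) (α : relGrp F E R) :
    af (α : MulAut ↥(R ⊔ centralizerIn S R)) y = y * (dMap (E := E) L hy α : Ω) :=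
  (mul_inv_cancel_left _ _).symm

theorem vComm (a b : centralizerIn T R) : a * b = b * a :=
  Subtype.ext (L.comm (L.zK b.2) a.2)

theorem dMap_cocycle (hy : y ∈ centralizerIn S R) :
    letI : CommGroup ↥(centralizerIn T R) :=
      { (inferInstance : Group ↥(centralizerIn T R)) with mul_comm := vComm L }
    IsCocycle (vHom (E := E) L) (dMap (E := E) L hy) := by
  intro g h
  refine Subtype.ext (mul_left_cancel (a := y) ?_)
  show y * (dMap (E := E) L hy (g * h) : Ω) =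
    y * ((dMap (E := E) L hy g : Ω) * ((vHom (E := E) L g (dMap L hy h) : centralizerIn T R) : Ω))
  rw [← dMap_val L hy (g * h), Subgroup.coe_mul, af_mul _ _ (Subgroup.mem_sup_right hy),
    dMap_val L hy h, (mem_relGrp L g.2).1.1.mor.map_mul (Subgroup.mem_sup_right hy)
      (Subgroup.mem_sup_right (L.zK (dMap (E := E) L hy h).2)), dMap_val L hy g, vHom_val, mul_assoc]

/-- Conjugation by elements of `N_T(R)`. -/
theorem conj_rel (hsn : ∀ {s}, s ∈ S → s ∈ Subgroup.normalizer (T : Set Ω))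
    (hs : z ∈ normalizerIn T R) : Rel F T R (cj z) := by
  have hz : z ∈ S := L.hTS hs.1
  have hW : R ⊔ centralizerIn S R ≤ S := sup_le L.hRS centralizerIn_le
  haveI := finite_of_le hW
  have hC : ∀ x ∈ centralizerIn S R, cj z x ∈ centralizerIn S R := fun x hx => by
    refine ⟨cj_mem hz hx.1, fun v hv => ?_⟩
    have hv' : z⁻¹ * v * z ∈ R := by
      have := (cj_mem_iff (inv_mem hs.2) v).mpr hv
      rwa [cj_apply, inv_inv] at this
    have h : z⁻¹ * v * z * x = x * (z⁻¹ * v * z) := hx.2 _ hv'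
    show v * (z * x * z⁻¹) = z * x * z⁻¹ * v
    calc v * (z * x * z⁻¹) = z * (z⁻¹ * v * z * x) * z⁻¹ := by group
      _ = z * (x * (z⁻¹ * v * z)) * z⁻¹ := by rw [h]
      _ = z * x * z⁻¹ * v := by group
  refine ⟨(Mor.conj hW hz).iso_of_card (fun x hx => (Mor.conj (F := F) hW hz).map_sup
      (fun u hu => Subgroup.mem_sup_left ((cj_mem_iff hs.2 u).mpr hu))
      (fun u hu => Subgroup.mem_sup_right (hC u hu)) x hx) le_rfl,
    fun x hx => (cj_mem_iff hs.2 x).mpr hx, fun x hx => ⟨?_, (Subgroup.centralizer _).mul_mem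
      ((Subgroup.centralizer _).inv_mem hx.2) (hC x hx).2⟩⟩
  rw [cj_apply, ← mul_assoc, ← mul_assoc]
  refine T.mul_mem ?_ (T.inv_mem hs.1)
  have hmem := (cj_mem_iff (hsn (S.inv_mem hx.1)) z).mpr hs.1
  rwa [cj_apply, inv_inv] at hmem

end Grp

end Cfsg.Agent.Fusion.CentOdd
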