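/-
The two local steps: quadratic vanishing at a centric subgroup, and averaging at a centric subgroup.
-/
import Cfsg.Agent.Fusion.CentOdd.Local
set_option autoImplicit false
set_option linter.style.haveILetI false
set_option linter.unusedSectionVars false
set_option maxHeartbeats 1000000

namespace Cfsg.Agent.Fusion.CentOdd

open scoped commutatorElement
open Cfsg Cfsg.FusionSystem Cfsg.Agent.FusionZJ Cfsg.Agent.Fusion.SatCrit Cfsg.Agent.Fusion.WeakResidual
open Cfsg.Agent.Fusion.CharSys (af af_coe af_apply af_mem af_mul af_one af_inv_self af_self_inv)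
open Cfsg.Agent.Fusion.CentFix (cent_mor)
open Cfsg.Agent.Fusion.CentE (Loc Rel Ctx Fix)

variable {Ω : Type*} [Group Ω] {S T : Subgroup Ω} {F : FusionSystem S} {E : FusionSystem T}
  {p : ℕ} {P Q R : Subgroup Ω} {φ φ' χ ψ f : Ω → Ω} {y z s t : Ω}

/-- An overgroup in `T` of a centric subgroup is centric. -/
theorem centric_up (hR : E.IsCentric R) (hRP : R ≤ P) (hP : P ≤ T) : E.IsCentric P := by
  refine ⟨hP, fun P' hP' x hx => ?_⟩
  obtain ⟨f, hf⟩ := isConj_iff.mp hP'
  have hle := hf.restrict_img_le hRP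
  exact hle (hR.2 _ (hf.restrict hRP).isConj ⟨hx.1, fun v hv => hx.2 v (hle hv)⟩)

section

variable (c : Ctx F E p) [Fact p.Prime] [Finite S]
include c

/-- Maps of `E` on centric subgroups extend over `C_S(T)`. -/
theorem centric_X (hP : E.IsCentric P) (hf : Mor E P f) : X F T P f := by
  haveI := finite_of_le c.toWCtx.tle
  obtain ⟨a, g, ha, hg, e⟩ := genFactor c.toWCtx.hT c.hEsat P f hf
  obtain ⟨φ, hφ, eφ, hc⟩ := c.toWCtx.pgen_X hg hP
  obtain ⟨-, β, hβ, eβ, hβc⟩ := c.hext a ha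
  have hm : ∀ x ∈ P ⊔ centralizerIn S T, φ x ∈ T ⊔ centralizerIn S T := hφ.map_sup
    (fun x hx => Subgroup.mem_sup_left (eφ x hx ▸ hg.mor.map_mem hx))
    (fun x hx => by
      rw [← mul_inv_cancel_left x (φ x)]
      exact mul_mem (Subgroup.mem_sup_right hx) (Subgroup.mem_sup_left (hc x hx)))
  refine ⟨β ∘ φ, hφ.comp hβ.mor hm, fun x hx => ?_, fun x hx => ?_⟩
  · show β (φ x) = f x
    rw [eφ x hx, eβ _ (hg.mor.map_mem hx), e x hx]
  · show x⁻¹ * β (φ x) ∈ T
    have h : β (φ x) = β x * β (x⁻¹ * φ x) := by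
      rw [← hβ.mor.map_mul (Subgroup.mem_sup_right hx) (Subgroup.mem_sup_left (hc x hx)),
        mul_inv_cancel_left]
    rw [h, ← mul_assoc, eβ _ (hc x hx)]
    exact T.mul_mem (hβc x hx) (ha.mapsTo (hc x hx))

theorem conjT_rel (L : Loc F T p R) (hs : s ∈ normalizerIn T R) : Rel F T R (cj s) :=
  conj_rel L (fun h => c.toWCtx.tn h) hs

/-- A conjugate, by a relative extension, of the conjugation by an element of `T` that again induces
the conjugation by an element of `T` fixes every element of `C_S(T)`. -/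
theorem conj_fix (hn : F.IsFullyNormalized R) (hR : E.IsCentric R) (hy : y ∈ centralizerIn S T)
    (hφ : Rel F T R φ) (hφ' : Rel F T R φ') (hl : ∀ x ∈ R ⊔ centralizerIn S R, φ' (φ x) = x)
    (hE : Iso E φ' R R) (hs : s ∈ normalizerIn T R) (ht : t ∈ T)
    (hst : ∀ x ∈ R, φ' (cj s x) = cj t (φ' x)) : φ' (cj s (φ y)) = y := by
  haveI := finite_of_le c.tle
  have L := c.loc hR (IsSaturated_fullyNormalized c.hS c.hF hn).1
  have hRT := hR.1
  have hyR : y ∈ centralizerIn S R := ⟨hy.1, fun v hv => hy.2 v (hRT hv)⟩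
  have hEn := subsystem_fullyNormalized c.hS c.hF c.strong c.hinv.1 hRT hn
  obtain ⟨-, -, hrec⟩ := IsSaturated_fullyNormalized c.toWCtx.hT c.hEsat hEn
  obtain ⟨e, he, ee⟩ := (receptive_iff.mp hrec).2 R φ' hE
  have hsN : s ∈ nphi T R φ' := mem_nphi.mpr ⟨hs.1, hs.2, t, ht, hst⟩
  set P := R ⊔ Subgroup.zpowers s with hPdef
  have hPT : P ≤ T := sup_le hRT (Subgroup.zpowers_le.mpr hs.1)
  have heP : Mor E P e := he.restrict (sup_le hE.mor.le_nphi (Subgroup.zpowers_le.mpr hsN))
  obtain ⟨ε, hε, eε, hεc⟩ := centric_X c (centric_up hR le_sup_left hPT) heP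
  have hsP : s ∈ P := Subgroup.mem_sup_right (Subgroup.mem_zpowers s)
  have hyW : y ∈ P ⊔ centralizerIn S T := Subgroup.mem_sup_right hy
  have eR : ∀ x ∈ R, ε x = φ' x := fun x hx => by rw [eε x (Subgroup.mem_sup_left hx), ee x hx]
  set s' := ε s with hs'
  have hs'T : s' ∈ T := by rw [hs', eε s hsP]; exact heP.map_mem hsP
  have hεP : ∀ x ∈ R, ε (cj s x) = cj s' (ε x) := fun x hx =>
    hε.map_conj (Subgroup.mem_sup_left hsP) (Subgroup.mem_sup_left (Subgroup.mem_sup_left hx))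
  have hs'N : s' ∈ normalizerIn T R := by
    refine ⟨hs'T, ?_⟩
    have hmap : ∀ x ∈ R, cj s' x ∈ R := fun x hx => by
      obtain ⟨v, hv, rfl⟩ := hE.surj hx
      rw [← eR v hv, ← hεP v hv, eR _ ((cj_mem_iff hs.2 v).mpr hv)]
      exact hE.mapsTo ((cj_mem_iff hs.2 v).mpr hv)
    haveI := finite_of_le hRT
    exact Subgroup.mem_normalizer_fintype hmap
  -- the displacements
  have hwT : y⁻¹ * ε y ∈ T := hεc y hy
  have hεyR : ∀ v ∈ R, v * ε y = ε y * v := fun v hv => by
    obtain ⟨u, hu, rfl⟩ := hE.surj hv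
    rw [← eR u hu, ← hε.map_mul (Subgroup.mem_sup_left (Subgroup.mem_sup_left hu)) hyW,
      ← hε.map_mul hyW (Subgroup.mem_sup_left (Subgroup.mem_sup_left hu)), hy.2 u (hRT hu)]
  obtain ⟨w, hw, hεy⟩ : ∃ w ∈ centralizerIn T R, ε y = y * w :=
    ⟨_, ⟨hwT, (Subgroup.centralizer _).mul_mem ((Subgroup.centralizer _).inv_mem hyR.2) hεyR⟩,
      (mul_inv_cancel_left _ _).symm⟩
  obtain ⟨u, hu, hφy⟩ : ∃ u ∈ centralizerIn T R, φ y = y * u :=
    ⟨_, hφ.2.2 y hyR, (mul_inv_cancel_left _ _).symm⟩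
  obtain ⟨u', hu', hφ'y⟩ : ∃ u ∈ centralizerIn T R, φ' y = y * u :=
    ⟨_, hφ'.2.2 y hyR, (mul_inv_cancel_left _ _).symm⟩
  have hle : R ⊔ Subgroup.zpowers y ≤ P ⊔ centralizerIn S T :=
    sup_le (le_sup_left.trans le_sup_left) (Subgroup.zpowers_le.mpr hyW)
  have hle' : R ⊔ Subgroup.zpowers y ≤ R ⊔ centralizerIn S R :=
    sup_le le_sup_left (Subgroup.zpowers_le.mpr (Subgroup.mem_sup_right hyR))
  have hfixw : cj s' (u' * w⁻¹) = u' * w⁻¹ :=
    eta_fixed L hyR (hφ'.1.mor.restrict hle') (hε.restrict hle) (fun x hx => (eR x hx).symm)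
      (fun x hx => by rw [eR x hx]; exact hE.mapsTo hx) hu' hw hφ'y hεy (conjT_rel c L hs'N)
  have hsy : cj s' (y * w) = y * w := by
    rw [← hεy]
    have h := hε.map_conj (x := s) (y := y) (Subgroup.mem_sup_left hsP) hyW
    rw [show s * y * s⁻¹ = y by rw [hy.2 s hs.1, mul_inv_cancel_right]] at h
    exact h.symm
  have hyfix : cj s' y = y := by rw [cj_apply, hy.2 s' hs'T, mul_inv_cancel_right]
  have hwfix : cj s' w = w := by
    rw [cj_map_mul, hyfix] at hsy
    exact mul_left_cancel hsy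
  have hu'fix : cj s' u' = u' := by
    rw [cj_map_mul, show cj s' w⁻¹ = (cj s' w)⁻¹ by simp [cj_apply, mul_assoc], hwfix] at hfixw
    exact mul_right_cancel hfixw
  -- evaluate
  have huR : u ∈ R := L.hZR hu
  have hφu : φ' u = u'⁻¹ := by
    have h := hl y (Subgroup.mem_sup_right hyR)
    rw [hφy, hφ'.1.mor.map_mul (Subgroup.mem_sup_right hyR) (Subgroup.mem_sup_left huR), hφ'y,
      mul_assoc] at h
    exact eq_inv_of_mul_eq_one_right (mul_left_cancel (h.trans (mul_one y).symm))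
  have hsu : cj s u ∈ R := (cj_mem_iff hs.2 u).mpr huR
  rw [hφy, cj_map_mul, show cj s y = y by rw [cj_apply, hy.2 s hs.1, mul_inv_cancel_right],
    hφ'.1.mor.map_mul (Subgroup.mem_sup_right hyR) (Subgroup.mem_sup_left hsu), hφ'y, ← eR _ hsu,
    hεP u huR, eR u huR, hφu, show cj s' u'⁻¹ = (cj s' u')⁻¹ by simp [cj_apply, mul_assoc], hu'fix,
    mul_inv_cancel_right]

end

section Setup

variable (c : Ctx F E p) [Fact p.Prime] [Finite S] (L : Loc F T p R)
include c L

theorem conj_equiv_mem (hs : s ∈ normalizerIn T R) :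
    ((conjT_rel c L hs).1.equiv : MulAut ↥(R ⊔ centralizerIn S R)) ∈ relGrp F E R := by
  refine Subgroup.subset_closure ⟨rel_congr L (conjT_rel c L hs) fun x hx => by rw [af_apply _ hx]; rfl,
    actHom T R ⟨s, hs⟩, autInducedBy_le_autGroup L.hRT ((range_actHom T R).le ⟨_, rfl⟩), fun x => ?_⟩
  rw [af_apply _ (Subgroup.mem_sup_left x.2), actHom_apply]
  rfl

/-- Conjugation by the elements of `N_T(R)`. -/
noncomputable def cHom : normalizerIn T R →* relGrp F E R where
  toFun s := ⟨(conjT_rel c L s.2).1.equiv, conj_equiv_mem c L s.2⟩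
  map_one' := Subtype.ext (MulEquiv.ext fun x => Subtype.ext (cj_one (x : Ω)))
  map_mul' a b := Subtype.ext (MulEquiv.ext fun x => Subtype.ext (cj_mul (a : Ω) b x))

theorem cHom_val (a : normalizerIn T R) {x : Ω} (hx : x ∈ R ⊔ centralizerIn S R) :
    af (cHom (E := E) c L a : MulAut ↥(R ⊔ centralizerIn S R)) x = cj (a : Ω) x :=
  (af_apply _ hx).trans rfl

theorem res_cHom (a : normalizerIn T R) :
    resHom (E := E) L (cHom c L a) = actHom T R a :=
  MulEquiv.ext fun x => Subtype.ext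
    ((resHom_val L _ x).trans ((cHom_val c L a (Subgroup.mem_sup_left x.2)).trans (actHom_apply T R a x).symm))

/-- The elements acting on `R` as elements of `T`. -/
noncomputable def innSub : Subgroup (relGrp F E R) :=
  (autInducedBy T R).comap (resHom (E := E) L)

theorem index_dvd (hn : F.IsFullyNormalized R) (K : Subgroup (MulAut R))
    (hle : autInducedBy T R ≤ K) (hK : K ≤ E.autGroup R) :
    ¬ p ∣ (autInducedBy T R).relIndex K := by
  haveI := finite_of_le c.tle
  haveI := finite_of_le L.hRT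
  haveI := finite_mulAut (G := R)
  have hEn := subsystem_fullyNormalized c.hS c.hF c.strong c.hinv.1 L.hRT hn
  obtain ⟨-, ⟨-, V, hV⟩, -⟩ := IsSaturated_fullyNormalized c.toWCtx.hT c.hEsat hEn
  intro h
  refine V.not_dvd_index ?_
  rw [hV]
  exact h.trans ⟨_, (Subgroup.relIndex_mul_relIndex _ K _ hle hK).symm⟩

theorem autInduced_le_range : autInducedBy T R ≤ (resHom (E := E) L).range := by
  intro α hα
  rw [← range_actHom] at hα
  obtain ⟨a, rfl⟩ := hα
  exact ⟨cHom c L a, res_cHom c L a⟩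

theorem innSub_index (hn : F.IsFullyNormalized R) : ¬ p ∣ (innSub (E := E) L).index := by
  rw [innSub, Subgroup.index_comap]
  exact index_dvd c L hn _ (autInduced_le_range c L)
    (by rintro _ ⟨α, rfl⟩; exact resHom_mem L α)

/-- The elements of `C_T(R)` fixed by the whole group of relative extensions. -/
noncomputable def fixV : Subgroup ↥(centralizerIn T R) where
  carrier := {v | ∀ g : relGrp F E R, vHom (E := E) L g v = v}
  one_mem' g := map_one _
  mul_mem' {a b} ha hb g := by rw [map_mul, ha g, hb g]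
  inv_mem' {a} ha g := by rw [map_inv, ha g]

/-- An extension over `y` fixing `y` makes the displacement fixed. -/
theorem d_fixed (hy : y ∈ centralizerIn S R) (g : relGrp F E R)
    (hψ : Mor F (R ⊔ Subgroup.zpowers y) ψ)
    (e : ∀ x ∈ R, ψ x = af (g : MulAut ↥(R ⊔ centralizerIn S R)) x) (hψy : ψ y = y) :
    dMap (E := E) L hy g ∈ fixV (E := E) L := by
  intro β
  have hg := (mem_relGrp L g.2).1
  have hle : R ⊔ Subgroup.zpowers y ≤ R ⊔ centralizerIn S R :=
    sup_le le_sup_left (Subgroup.zpowers_le.mpr (Subgroup.mem_sup_right hy))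
  have := eta_fixed L hy (hg.1.mor.restrict hle) hψ (fun x hx => (e x hx).symm)
    (fun x hx => by rw [e x hx]; exact hg.2.1 x hx) (dMap (E := E) L hy g).2 (one_mem _)
    (dMap_val L hy g) (by rw [hψy, mul_one]) (mem_relGrp L β.2).1
  rw [inv_one, mul_one] at this
  exact Subtype.ext ((vHom_val L β _).trans this)

theorem d_innSub (hy : y ∈ centralizerIn S T) (hyR : y ∈ centralizerIn S R) :
    ∀ h ∈ innSub (E := E) L, dMap (E := E) L hyR h ∈ fixV (E := E) L := by
  intro h hh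
  obtain ⟨t, ht, -, et⟩ := mem_autInducedBy.mp (Subgroup.mem_comap.mp hh)
  refine d_fixed c L hyR h (ψ := cj t) (Mor.conj (sup_le L.hRS
    (Subgroup.zpowers_le.mpr hy.1)) (c.tle ht)) (fun x hx => ?_) ?_
  · rw [cj_apply]
    exact ((et ⟨x, hx⟩).symm.trans (resHom_val L h ⟨x, hx⟩))
  · rw [cj_apply, hy.2 t ht, mul_inv_cancel_right]

end Setup

section Main

variable (c : Ctx F E p) [Fact p.Prime] [Finite S]
include c

/-- Quadratic step: with the larger maps fixing `y`, so do the relative extensions at `R`. -/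
theorem quadratic_fix (hp : p ≠ 2) (hn : F.IsFullyNormalized R) (hR : E.IsCentric R)
    (hy : y ∈ centralizerIn S T) {A : Subgroup Ω} (hA : IsMaxAb (normalizerIn T R) A) (hAR : ¬ A ≤ R)
    (IH : ∀ P f, Mor E P f → key T R < key T P → Fix F (Subgroup.zpowers y) P f)
    (hφ : Rel F T R φ) {π : MulAut R} (hπ : π ∈ E.autGroup R) (eπ : ∀ x : R, φ x = ((π x : R) : Ω))
    {l : ℕ} (hl : l.Coprime p) (hφl : ∀ x ∈ R ⊔ centralizerIn S R, φ^[l] x = x) : φ y = y := by
  have L := c.loc hR (IsSaturated_fullyNormalized c.hS c.hF hn).1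
  have hRT := hR.1
  haveI := finite_of_le c.tle
  haveI := finite_of_le (normalizerIn_le : normalizerIn T R ≤ T)
  haveI := finite_of_le hRT
  haveI := finite_of_le L.hRS
  haveI : Finite ↥(centralizerIn T R) := finite_of_le (L.zK.trans centralizerIn_le)
  haveI := finite_of_le (sup_le L.hRS (centralizerIn_le : centralizerIn S R ≤ S))
  haveI := finite_mulAut (G := ↥(R ⊔ centralizerIn S R))
  haveI := finite_mulAut (G := R)
  have hyR : y ∈ centralizerIn S R := ⟨hy.1, fun v hv => hy.2 v (hRT hv)⟩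
  have hV : IsPGroup p ↥(centralizerIn T R) := c.hS.to_le (L.zK.trans centralizerIn_le)
  letI : CommGroup ↥(centralizerIn T R) :=
    { (inferInstance : Group ↥(centralizerIn T R)) with mul_comm := vComm L }
  obtain ⟨A₁, hA₁, hA₁R, hquad⟩ := exists_quadratic (B := centralizerIn T R)
    (c.toWCtx.hT.to_le normalizerIn_le) (le_normalizerIn hRT) L.hZR
    (fun x hx b hb => hb.2 x hx)
    (fun g hg b hb => by simpa only [cj_apply] using rel_mapsV L (conjT_rel c L hg) hb) ⟨A, hA, hAR⟩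
  set U := fixV (E := E) L
  have hd := dMap_cocycle (E := E) L hyR
  set d := dMap (E := E) L hyR
  have hU : ∀ g, ∀ u ∈ U, vHom (E := E) L g u = u := fun g u hu => hu g
  let M : Subgroup (relGrp F E R) :=
    { carrier := {g | d g ∈ U}
      one_mem' := by
        show d 1 ∈ U
        rw [hd.map_one]; exact U.one_mem
      mul_mem' := fun {a b} ha hb => by
        show d (a * b) ∈ U
        rw [hd, hU a _ hb]; exact U.mul_mem ha hb
      inv_mem' := fun {a} ha => by
        show d a⁻¹ ∈ U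
        have h := hd a a⁻¹
        rw [mul_inv_cancel, hd.map_one] at h
        have h2 : vHom (E := E) L a (d a⁻¹) = (d a)⁻¹ := eq_inv_of_mul_eq_one_right h.symm
        have h3 : d a⁻¹ = (d a)⁻¹ := (vHom (E := E) L a).injective (h2.trans (hU a _ (U.inv_mem ha)).symm)
        rw [h3]; exact U.inv_mem ha }
  have hHM : innSub (E := E) L ≤ M := fun h hh => d_innSub c L hy hyR h hh
  have hMi : ¬ p ∣ M.index := fun h =>
    innSub_index c L hn (h.trans (Subgroup.index_dvd_of_le hHM))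
  set Ab := (A₁.subgroupOf (normalizerIn T R)).map (cHom (E := E) c L) with hAb
  have hAbM : Ab ≤ M := by
    rintro _ ⟨a, -, rfl⟩
    refine hHM (Subgroup.mem_comap.mpr ?_)
    rw [res_cHom]
    exact (range_actHom T R).le ⟨_, rfl⟩
  have hodd : Odd p := (Fact.out : p.Prime).odd_of_ne_two hp
  have hAbp : IsPGroup p Ab :=
    ((c.toWCtx.hT.to_le normalizerIn_le).to_subgroup _).map _
  have key' : ∀ g : relGrp F E R, d g ∈ U := fun g => vanish (d := d) hV hodd U hU hd M hMi
    (fun m hm => hm) Ab hAbp hAbM ?_ ?_ ?_ g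
  rotate_left
  · rintro _ ⟨a, ha, rfl⟩ _ ⟨b, hb, rfl⟩
    rw [← map_mul, ← map_mul]
    exact congrArg _ (Subtype.ext (hA₁.comm _ ha _ hb))
  · rintro _ ⟨a, ha, rfl⟩ v
    refine Subtype.ext ?_
    have hv : ∀ v : centralizerIn T R,
        ((vHom (E := E) L (cHom c L a) v : centralizerIn T R) : Ω) = cj (a : Ω) v := fun v =>
      (vHom_val L _ v).trans (cHom_val c L a (Subgroup.mem_sup_left (L.hZR v.2)))
    rw [hv, Subgroup.coe_mul, InvMemClass.coe_inv, hv]
    have h := hquad _ ha (v : Ω)⁻¹ ((centralizerIn T R).inv_mem v.2)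
    rw [commutatorElement_def, inv_inv] at h
    simp only [Subgroup.coe_subtype] at h
    show (a : Ω) * ((v : Ω)⁻¹ * ((a : Ω) * v * (a : Ω)⁻¹)) * (a : Ω)⁻¹ = _
    rw [show (v : Ω)⁻¹ * ((a : Ω) * v * (a : Ω)⁻¹) = (v : Ω)⁻¹ * a * v * (a : Ω)⁻¹ by group, h,
      mul_inv_cancel_right, cj_apply]
    group
  · intro g hg
    set Mb := M.map (resHom (E := E) L) with hMb
    have hIM : autInducedBy T R ≤ Mb := by
      intro α hα
      obtain ⟨a, ha⟩ := (range_actHom T R).ge hα
      have e := (res_cHom c L a).trans ha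
      exact ⟨cHom c L a, hHM (Subgroup.mem_comap.mpr (e.symm ▸ hα)), e⟩
    have hMbE : Mb ≤ E.autGroup R := by rintro _ ⟨α, -, rfl⟩; exact resHom_mem L α
    have hI : IsPGroup p ((autInducedBy T R).subgroupOf Mb) :=
      (isPGroup_autInducedBy c.toWCtx.hT R).comap_subtype
    let V0 : Sylow p Mb := hI.toSylow (index_dvd c L hn Mb hIM hMbE)
    set K := Ab.map ((resHom (E := E) L).comp (MulAut.conj g⁻¹).toMonoidHom) with hK
    have hKM : K ≤ Mb := by
      rintro _ ⟨a, ha, rfl⟩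
      exact ⟨_, hg a ha, by simp⟩
    obtain ⟨σ, hσ⟩ := conj_into_sylow V0 (hAbp.map _ : IsPGroup p K) hKM
    obtain ⟨m, hm, eσ⟩ := σ.2
    have hδ : ∀ a ∈ A₁, ∀ ha : a ∈ normalizerIn T R, resHom (E := E) L (m * g⁻¹) * actHom T R ⟨a, ha⟩ *
        (resHom (E := E) L (m * g⁻¹))⁻¹ ∈ autInducedBy T R := by
      intro a haA ha
      have hk := hσ _ (⟨_, ⟨⟨a, ha⟩, haA, rfl⟩, rfl⟩ :
        resHom (E := E) L (MulAut.conj g⁻¹ (cHom c L ⟨a, ha⟩)) ∈ K)
      have hk' : (σ : MulAut R) * resHom (E := E) L (MulAut.conj g⁻¹ (cHom c L ⟨a, ha⟩)) *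
          (σ : MulAut R)⁻¹ ∈ autInducedBy T R := hk
      rw [← eσ, MulAut.conj_apply, map_mul, map_mul, res_cHom, inv_inv, map_inv] at hk'
      rw [map_mul, map_inv, mul_inv_rev, inv_inv]
      simp only [mul_assoc] at hk' ⊢
      exact hk'
    set δ := m * g⁻¹ with hδdef
    set f := af (δ : MulAut ↥(R ⊔ centralizerIn S R)) with hf
    have hfE : Iso E f R R := (autGroup_iso hRT (resHom_mem L δ)).congr fun x hx =>
      (extFun_apply _ hx).trans (resHom_val L δ ⟨x, hx⟩)
    have hEn := subsystem_fullyNormalized c.hS c.hF c.strong c.hinv.1 hRT hn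
    obtain ⟨-, -, hrec⟩ := IsSaturated_fullyNormalized c.toWCtx.hT c.hEsat hEn
    obtain ⟨e, he, ee⟩ := (receptive_iff.mp hrec).2 R f hfE
    have hAN : A₁ ≤ nphi T R f := fun a haA => by
      have ha := hA₁.le haA
      obtain ⟨t, ht, -, et⟩ := mem_autInducedBy.mp (hδ a haA ha)
      refine mem_nphi.mpr ⟨ha.1, ha.2, t, ht, fun x hx => ?_⟩
      have h := et (resHom (E := E) L δ ⟨x, hx⟩)
      rw [MulAut.mul_apply, MulAut.mul_apply, MulAut.inv_apply_self] at h
      rw [cj_apply t]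
      exact h
    have hle : R ⊔ A₁ ≤ normalizerIn T R := sup_le (le_normalizerIn hRT) hA₁.le
    have hlt : key T R < key T (R ⊔ A₁) := key_lt le_sup_left (hle.trans normalizerIn_le)
      (isMaxAb_of_le hA₁ le_sup_right hle) hA₁R
    obtain ⟨ψ, hψ, eψ, hψy⟩ := IH _ e (he.restrict (sup_le hfE.mor.le_nphi hAN)) hlt
    have hδM : δ ∈ M := d_fixed c L hyR δ (hψ.restrict (sup_le_sup_right le_sup_left _))
      (fun x hx => (eψ x (Subgroup.mem_sup_left hx)).trans (ee x hx)) (hψy y (Subgroup.mem_zpowers y))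
    have : g = δ⁻¹ * m := by rw [hδdef]; group
    rw [this]
    exact M.mul_mem (M.inv_mem hδM) hm
  obtain ⟨α, hα, eα⟩ := exists_relGrp L hφ hπ eπ
  have hfix : ((vHom (E := E) L ⟨α, hα⟩ (d ⟨α, hα⟩) : centralizerIn T R) : Ω) = d ⟨α, hα⟩ :=
    congrArg Subtype.val (key' ⟨α, hα⟩ ⟨α, hα⟩)
  rw [vHom_val, eα _ (Subgroup.mem_sup_left (L.hZR (d ⟨α, hα⟩).2))] at hfix
  refine fix_of_fixed_diff L hyR hφ hl hφl (d ⟨α, hα⟩).2 ?_ hfix
  rw [← eα y (Subgroup.mem_sup_right hyR)]
  exact dMap_val L hyR ⟨α, hα⟩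

/-- Averaging step: some translate of `y` by `C_T(R)` is fixed by the relative extensions of order
prime to `p`; the translating element commutes with `N_T(R)`. -/
theorem average_fix (hn : F.IsFullyNormalized R) (hR : E.IsCentric R)
    (hy : y ∈ centralizerIn S T) (Y : Subgroup Ω)
    (hY : ∀ φ, Rel F T R φ → Iso E φ R R → y⁻¹ * φ y ∈ Y) :
    ∃ z ∈ centralizerIn T R ⊓ Y, (∀ t ∈ normalizerIn T R, cj t z = z) ∧
      ∀ φ, Rel F T R φ → Iso E φ R R → ∀ l : ℕ, l.Coprime p →
        (∀ x ∈ R ⊔ centralizerIn S R, φ^[l] x = x) → φ (y * z) = y * z := by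
  have L := c.loc hR (IsSaturated_fullyNormalized c.hS c.hF hn).1
  have hRT := hR.1
  haveI := finite_of_le c.tle
  haveI := finite_of_le hRT
  haveI := finite_of_le L.hRS
  haveI : Finite ↥(centralizerIn T R) := finite_of_le (L.zK.trans centralizerIn_le)
  haveI := finite_of_le (sup_le L.hRS (centralizerIn_le : centralizerIn S R ≤ S))
  haveI := finite_mulAut (G := ↥(R ⊔ centralizerIn S R))
  have hyR : y ∈ centralizerIn S R := ⟨hy.1, fun v hv => hy.2 v (hRT hv)⟩
  have hV : IsPGroup p ↥(centralizerIn T R) := c.hS.to_le (L.zK.trans centralizerIn_le)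
  letI : CommGroup ↥(centralizerIn T R) :=
    { (inferInstance : Group ↥(centralizerIn T R)) with mul_comm := vComm L }
  set U := fixV (E := E) L
  have hd := dMap_cocycle (E := E) L hyR
  set d := dMap (E := E) L hyR
  have hiso : ∀ g : relGrp F E R, Iso E (af (g : MulAut ↥(R ⊔ centralizerIn S R))) R R := fun g =>
    (autGroup_iso hRT (resHom_mem L g)).congr fun x hx =>
      (extFun_apply _ hx).trans (resHom_val L g ⟨x, hx⟩)
  obtain ⟨z, hzY, hz⟩ := average (d := d) hV U (fun g u hu => hu g) hd (innSub (E := E) L)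
    (innSub_index c L hn) (d_innSub c L hy hyR) (Y.subgroupOf (centralizerIn T R))
    (fun g => hY _ (mem_relGrp L g.2).1 (hiso g))
  refine ⟨z, ⟨z.2, hzY⟩, fun t ht => ?_, fun φ hφ hφE l hl hφl => ?_⟩
  · obtain ⟨u, -, hu, hu1⟩ := hz (cHom (E := E) c L ⟨t, ht⟩)
    have hd1 : ∀ a : normalizerIn T R, d (cHom (E := E) c L a) = 1 := fun a => Subtype.ext (by
      show y⁻¹ * af _ y = 1
      rw [cHom_val c L a (Subgroup.mem_sup_right hyR), cj_apply, hy.2 _ a.2.1, mul_inv_cancel_right,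
        inv_mul_cancel])
    have hu0 : u = 1 := hu1 fun k x hk => by
      rw [← map_pow] at hk ⊢
      set a := (⟨t, ht⟩ : normalizerIn T R) ^ k
      obtain ⟨t', ht', -, et'⟩ := mem_autInducedBy.mp (Subgroup.mem_comap.mp hk)
      refine Subtype.ext ?_
      show y⁻¹ * af ((x : MulAut ↥(R ⊔ centralizerIn S R))⁻¹ * (cHom (E := E) c L a : MulAut ↥(R ⊔ centralizerIn S R)) * (x : MulAut ↥(R ⊔ centralizerIn S R))) y = 1
      have hyW : y ∈ R ⊔ centralizerIn S R := Subgroup.mem_sup_right hyR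
      rw [af_mul _ _ hyW, af_mul _ _ (af_mem _ hyW), cHom_val c L a (af_mem _ hyW),
        ← Subgroup.coe_inv, conj_fix c hn hR hy (mem_relGrp L x.2).1 (mem_relGrp L (x⁻¹).2).1
          (fun v hv => af_inv_self _ hv) (hiso x⁻¹) a.2 ht' fun v hv => ?_, inv_mul_cancel]
      have h := et' (resHom (E := E) L x⁻¹ ⟨v, hv⟩)
      rw [map_mul, map_mul, res_cHom, map_inv, MulAut.mul_apply, MulAut.mul_apply,
        MulAut.apply_inv_self, ← map_inv] at h
      rw [resHom_val, resHom_val] at h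
      exact h
    rw [hu0, hd1, one_mul, mul_one] at hu
    have := congrArg Subtype.val hu
    rwa [vHom_val, cHom_val c L _ (Subgroup.mem_sup_left (L.hZR z.2))] at this
  · obtain ⟨α, hα, eα⟩ := exists_relGrp L hφ hφE.equiv_mem_autGroup fun _ => rfl
    obtain ⟨u, hu, heq, -⟩ := hz ⟨α, hα⟩
    have hyzR : y * (z : Ω) ∈ centralizerIn S R := mul_mem hyR (L.zK z.2)
    have hfu := congrArg Subtype.val (hu ⟨α, hα⟩)
    rw [vHom_val, eα _ (Subgroup.mem_sup_left (L.hZR u.2))] at hfu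
    refine fix_of_fixed_diff L hyzR hφ hl hφl u.2 ?_ hfu
    have h := congrArg Subtype.val heq
    rw [Subgroup.coe_mul, Subgroup.coe_mul, vHom_val, eα _ (Subgroup.mem_sup_left (L.hZR z.2))] at h
    rw [hφ.1.mor.map_mul (Subgroup.mem_sup_right hyR) (Subgroup.mem_sup_left (L.hZR z.2)),
      show φ y = y * (d ⟨α, hα⟩ : Ω) by
        rw [← eα y (Subgroup.mem_sup_right hyR)]; exact dMap_val L hyR ⟨α, hα⟩,
      mul_assoc, h, mul_assoc]

end Main

end Cfsg.Agent.Fusion.CentOdd
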