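/-
For `p` odd, every element of `C_S(T)` is, up to `Z(T)`, fixed by the normal subsystem on `T`.
-/
import Cfsg.Agent.Fusion.CentEStrong
import Cfsg.Agent.Fusion.CentOdd.Rigid
set_option autoImplicit false
set_option linter.style.haveILetI false
set_option linter.unusedSectionVars false
set_option maxHeartbeats 1000000

namespace Cfsg.Agent.Fusion.CentOdd

open scoped commutatorElement
open Cfsg Cfsg.FusionSystem Cfsg.Agent.FusionZJ Cfsg.Agent.Fusion.SatCrit Cfsg.Agent.Fusion.WeakResidual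
open Cfsg.Agent.Fusion.CharSys (af af_coe af_apply af_mem af_mul af_one af_inv_self af_self_inv)
open Cfsg.Agent.Fusion.CentFix (cent_mor exists_pprime_power iterate_agree iterate_rel)
open Cfsg.Agent.Fusion.CentE (Loc Rel Ctx Fix Good pGenAut pGenAut_le centE)

variable {Ω : Type*} [Group Ω] {S T : Subgroup Ω} {F : FusionSystem S} {E : FusionSystem T}
  {p : ℕ} {P Q R A : Subgroup Ω} {φ f g β : Ω → Ω} {x y : Ω}

theorem mem_thompson_of_centralizes [Finite P] (hx : x ∈ P)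
    (h : ∀ v ∈ thompsonSubgroupAOf P, v * x = x * v) : x ∈ thompsonSubgroupAOf P := by
  obtain ⟨A, hA⟩ := exists_maxAb (P := P)
  refine le_thompsonA hA ?_
  have h2 : A ⊔ Subgroup.zpowers x ≤ Subgroup.centralizer (A : Set Ω) :=
    sup_le (fun a ha b hb => hA.comm b hb a ha)
      (Subgroup.zpowers_le.mpr fun b hb => h b (le_thompsonA hA hb))
  have h3 : A ⊔ Subgroup.zpowers x ≤ Subgroup.centralizer (A ⊔ Subgroup.zpowers x : Subgroup Ω) := by
    refine sup_le (fun a ha b hb => (h2 hb a ha).symm) (Subgroup.zpowers_le.mpr fun b hb => ?_)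
    have : A ⊔ Subgroup.zpowers x ≤ Subgroup.centralizer ({x} : Set Ω) :=
      sup_le (fun a ha => Subgroup.mem_centralizer_singleton_iff.mpr (h a (le_thompsonA hA ha)))
        (Subgroup.zpowers_le.mpr (Subgroup.mem_centralizer_singleton_iff.mpr rfl))
    exact Subgroup.mem_centralizer_singleton_iff.mp (this hb)
  haveI := finite_of_le (sup_le hA.le (Subgroup.zpowers_le.mpr hx))
  have h4 : A = A ⊔ Subgroup.zpowers x := eq_of_le_of_card le_sup_left
    (hA.max _ (sup_le hA.le (Subgroup.zpowers_le.mpr hx)) fun a ha b hb => h3 hb a ha)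
  rw [h4]
  exact Subgroup.mem_sup_right (Subgroup.mem_zpowers x)

/-- The automorphisms induced on an invariant subgroup by the `p`-generated ones are `p`-generated. -/
theorem pGen_restrict (hR : R ≤ T) [Finite R] (hQ : Q ≤ R)
    (hinv : ∀ f, Iso E f R R → ∀ x ∈ Q, f x ∈ Q) [Fact p.Prime] {π : MulAut R}
    (hπ : π ∈ pGenAut E p R) :
    ∃ π' ∈ pGenAut E p Q, ∀ (x : Q) (y : R), (y : Ω) = x → ((π' x : Q) : Ω) = ((π y : R) : Ω) := by
  haveI := finite_of_le hQ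
  induction hπ using Subgroup.closure_induction with
  | mem π hπ =>
    obtain ⟨hπE, k, hk⟩ := hπ
    obtain ⟨f, hf, ef⟩ := (mem_autGroup_iff hR).mp hπE
    have hQQ : Iso E f Q Q := (hf.mor.restrict hQ).iso_of_card (hinv f hf) le_rfl
    refine ⟨hQQ.equiv, Subgroup.subset_closure ⟨hQQ.equiv_mem_autGroup, ?_⟩, fun x y e => ?_⟩
    · have h : (hQQ.equiv : MulAut Q) ^ p ^ k = 1 := MulEquiv.ext fun x => Subtype.ext (by
        rw [equiv_pow_apply, ← equiv_pow_apply hf (p ^ k) ⟨x, hQ x.2⟩]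
        have : (hf.equiv : MulAut R) = π := MulEquiv.ext fun z => Subtype.ext (ef z)
        rw [this, ← hk, pow_orderOf_eq_one]
        rfl)
      obtain ⟨j, -, hj⟩ := (Nat.dvd_prime_pow (Fact.out : p.Prime)).mp (orderOf_dvd_of_pow_eq_one h)
      exact ⟨j, hj⟩
    · show f x = _
      rw [← e, ef y]
  | one => exact ⟨1, one_mem _, fun x y e => e.symm⟩
  | mul π₁ π₂ _ _ ih₁ ih₂ =>
    obtain ⟨a, ha, ea⟩ := ih₁
    obtain ⟨b, hb, eb⟩ := ih₂
    exact ⟨a * b, mul_mem ha hb, fun x y e => ea (b x) (π₂ y) (eb x y e).symm⟩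
  | inv π _ ih =>
    obtain ⟨a, ha, ea⟩ := ih
    refine ⟨a⁻¹, inv_mem ha, fun x y e => ?_⟩
    have h := ea (a⁻¹ x) ⟨((a⁻¹ x : Q) : Ω), hQ (SetLike.coe_mem _)⟩ rfl
    rw [MulAut.apply_inv_self] at h
    have hy : π ⟨((a⁻¹ x : Q) : Ω), hQ (SetLike.coe_mem _)⟩ = y := Subtype.ext (h.symm.trans e.symm)
    rw [← hy, MulAut.inv_apply_self]

section

variable {π : MulAut R}

theorem aut_pow_val (e : ∀ v : R, φ v = ((π v : R) : Ω)) :
    ∀ (n : ℕ) (v : R), (((π ^ n) v : R) : Ω) = φ^[n] (v : Ω)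
  | 0, _ => rfl
  | n + 1, v => by
    rw [pow_succ', MulAut.mul_apply, Function.iterate_succ_apply', ← e, aut_pow_val e n]

end

variable (c : Ctx F E p) [Fact p.Prime] [Finite S]
include c

theorem conj_thompson (hR : R ≤ S) {s : Ω} (hs : s ∈ normalizerIn S R) :
    s ∈ Subgroup.normalizer (thompsonSubgroupAOf R : Set Ω) := by
  haveI := finite_of_le (thompson_le.trans hR : thompsonSubgroupAOf R ≤ S)
  exact Subgroup.mem_normalizer_fintype fun v hv =>
    thompson_map (Iso.conj_self (F := F) hR hs.1 hs.2) hv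

theorem top_thompson_facts :
    F.IsFullyNormalized (thompsonSubgroupAOf T) ∧ E.IsCentric (thompsonSubgroupAOf T) := by
  haveI := finite_of_le c.tle
  have hle : thompsonSubgroupAOf T ≤ T := thompson_le
  have hn : F.IsFullyNormalized (thompsonSubgroupAOf T) := by
    refine ⟨hle.trans c.tle, fun Q _ => ?_⟩
    rw [show normalizerIn S (thompsonSubgroupAOf T) = S from le_antisymm normalizerIn_le fun s hs =>
      ⟨hs, conj_thompson c c.tle ⟨hs, c.toWCtx.tn hs⟩⟩]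
    exact card_le_of_le normalizerIn_le
  refine ⟨hn, isCentric_of_fullyCentralized c.toWCtx.hT c.hEsat
    (IsSaturated_fullyNormalized c.toWCtx.hT c.hEsat
      (subsystem_fullyNormalized c.hS c.hF c.strong c.hinv.1 hle hn)).1 fun x hx => ?_⟩
  exact mem_thompson_of_centralizes hx.1 fun v hv => hx.2 v hv

omit [Fact p.Prime] [Finite S] in
/-- The elements of `C_S(T)` fixed by the relative extensions of order prime to `p` at `J(T)`. -/
def fixedJ : Subgroup Ω where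
  carrier := {y | y ∈ centralizerIn S T ∧ ∀ (φ : Ω → Ω) (π : MulAut (thompsonSubgroupAOf T)) (l : ℕ),
    Rel F T (thompsonSubgroupAOf T) φ → π ∈ pGenAut E p (thompsonSubgroupAOf T) →
    (∀ v : thompsonSubgroupAOf T, φ v = ((π v : thompsonSubgroupAOf T) : Ω)) → l.Coprime p →
    (∀ v ∈ thompsonSubgroupAOf T ⊔ centralizerIn S (thompsonSubgroupAOf T), φ^[l] v = v) → φ y = y}
  one_mem' := ⟨one_mem _, fun φ π l hφ _ _ _ _ => hφ.1.mor.map_one⟩
  mul_mem' {a b} ha hb := ⟨mul_mem ha.1 hb.1, fun φ π l h1 h2 h3 h4 h5 => by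
    rw [h1.1.mor.map_mul (Subgroup.mem_sup_right ⟨ha.1.1, fun v hv => ha.1.2 v (thompson_le hv)⟩)
      (Subgroup.mem_sup_right ⟨hb.1.1, fun v hv => hb.1.2 v (thompson_le hv)⟩),
      ha.2 φ π l h1 h2 h3 h4 h5, hb.2 φ π l h1 h2 h3 h4 h5]⟩
  inv_mem' {a} ha := ⟨inv_mem ha.1, fun φ π l h1 h2 h3 h4 h5 => by
    rw [h1.1.mor.map_inv (Subgroup.mem_sup_right ⟨ha.1.1, fun v hv => ha.1.2 v (thompson_le hv)⟩),
      ha.2 φ π l h1 h2 h3 h4 h5]⟩

theorem fixedJ_sym (hβ : Iso F β (T ⊔ centralizerIn S T) (T ⊔ centralizerIn S T))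
    (hβT : ∀ t ∈ T, β t ∈ T) (hy : y ∈ fixedJ (F := F) (E := E) (p := p) (S := S) (T := T)) :
    β y ∈ fixedJ (F := F) (E := E) (p := p) (S := S) (T := T) := by
  refine ⟨c.sym_mapsC hβ hβT hy.1, ?_⟩
  obtain ⟨hJn, hJc⟩ := top_thompson_facts c
  haveI := finite_of_le c.tle
  set J := thompsonSubgroupAOf T with hJ
  intro φ π l hφ hπ eπ hl hφl
  have hJT : J ≤ T := thompson_le
  have L := c.loc hJc (IsSaturated_fullyNormalized c.hS c.hF hJn).1
  obtain ⟨β', hβ', hβ'T, hbl, hbr⟩ := c.sym_symm hβ hβT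
  have hβ'J : Iso F β' J J := thompson_iso ((hβ'.mor.restrict le_sup_left).iso_of_card hβ'T le_rfl)
  have hπl : π ^ l = 1 := MulEquiv.ext fun v => Subtype.ext (by
    rw [aut_pow_val eπ, hφl v (Subgroup.mem_sup_left v.2)]; rfl)
  obtain ⟨φ₂, l₂, hφ₂, hl₂, hφ₂l, e₂⟩ := c.exists_rel_pprime hJn hJc
    (CentE.Ctx.transport_mem c hJT hβ'J hπ) hl (by rw [← map_pow, hπl, map_one])
  have hy₂ : φ₂ y = y := hy.2 φ₂ _ l₂ hφ₂ (CentE.Ctx.transport_mem c hJT hβ'J hπ) e₂ hl₂ hφ₂l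
  have hyJ : y ∈ centralizerIn S J := ⟨hy.1.1, fun v hv => hy.1.2 v (hJT hv)⟩
  have hby := c.sym_mapsC hβ hβT hy.1
  have hbyJ : β y ∈ centralizerIn S J := ⟨hby.1, fun v hv => hby.2 v (hJT hv)⟩
  have hle1 : J ⊔ Subgroup.zpowers (β y) ≤ T ⊔ centralizerIn S T :=
    sup_le (hJT.trans le_sup_left) (Subgroup.zpowers_le.mpr (Subgroup.mem_sup_right hby))
  have hle2 : J ⊔ Subgroup.zpowers y ≤ T ⊔ centralizerIn S T :=
    sup_le (hJT.trans le_sup_left) (Subgroup.zpowers_le.mpr (Subgroup.mem_sup_right hy.1))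
  have hle3 : J ⊔ Subgroup.zpowers y ≤ J ⊔ centralizerIn S J :=
    sup_le le_sup_left (Subgroup.zpowers_le.mpr (Subgroup.mem_sup_right hyJ))
  have hm1 := hβ'.mor.restrict hle1
  have m1 : ∀ v ∈ J ⊔ Subgroup.zpowers (β y), β' v ∈ J ⊔ Subgroup.zpowers y := hm1.map_sup
    (fun v hv => Subgroup.mem_sup_left (hβ'J.mapsTo hv))
    (fun v hv => by
      obtain ⟨n, rfl⟩ := Subgroup.mem_zpowers_iff.mp hv
      have h := map_zpow hm1.hom (⟨β y, Subgroup.mem_sup_right (Subgroup.mem_zpowers _)⟩ :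
        (J ⊔ Subgroup.zpowers (β y) : Subgroup Ω)) n
      rw [Mor.hom_apply, Mor.hom_apply] at h
      rw [show β' (β y ^ n) = (β' (β y)) ^ n from h, hbl y (Subgroup.mem_sup_right hy.1)]
      exact Subgroup.mem_sup_right (zpow_mem (Subgroup.mem_zpowers y) n))
  have hm2 := hφ₂.1.mor.restrict hle3
  have m2 : ∀ v ∈ J ⊔ Subgroup.zpowers y, φ₂ v ∈ J ⊔ Subgroup.zpowers y := hm2.map_sup
    (fun v hv => Subgroup.mem_sup_left (hφ₂.2.1 v hv))
    (fun v hv => by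
      obtain ⟨n, rfl⟩ := Subgroup.mem_zpowers_iff.mp hv
      have h := map_zpow hm2.hom (⟨y, Subgroup.mem_sup_right (Subgroup.mem_zpowers _)⟩ :
        (J ⊔ Subgroup.zpowers y : Subgroup Ω)) n
      rw [Mor.hom_apply, Mor.hom_apply] at h
      rw [show φ₂ (y ^ n) = (φ₂ y) ^ n from h, hy₂]
      exact Subgroup.mem_sup_right (zpow_mem (Subgroup.mem_zpowers y) n))
  refine L.fix_of_ext hφ hl hφl (Y := Subgroup.zpowers (β y)) (Subgroup.zpowers_le.mpr hbyJ)
    (ψ := β ∘ φ₂ ∘ β') ((hm1.comp hm2 m1).comp hβ.mor fun v hv => hle2 (m2 _ (m1 v hv)))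
    (fun v hv => ?_) ?_ _ (Subgroup.mem_zpowers _)
  · show β (φ₂ (β' v)) = φ v
    have h : φ₂ (β' v) = β' ((π ⟨v, hv⟩ : J) : Ω) := by
      rw [show φ₂ (β' v) = _ from e₂ ⟨β' v, hβ'J.mapsTo hv⟩]
      exact hβ'J.transport_val π hv
    rw [h, hbr _ (Subgroup.mem_sup_left (hJT (SetLike.coe_mem _))), eπ ⟨v, hv⟩]
  · have hmor : Mor F (J ⊔ Subgroup.zpowers (β y)) (β ∘ φ₂ ∘ β') :=
      (hm1.comp hm2 m1).comp hβ.mor fun v hv => hle2 (m2 _ (m1 v hv))
    intro v hv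
    obtain ⟨n, rfl⟩ := Subgroup.mem_zpowers_iff.mp hv
    have h := map_zpow hmor.hom (⟨β y, Subgroup.mem_sup_right (Subgroup.mem_zpowers _)⟩ :
      (J ⊔ Subgroup.zpowers (β y) : Subgroup Ω)) n
    rw [Mor.hom_apply, Mor.hom_apply] at h
    rw [show (β ∘ φ₂ ∘ β') (β y ^ n) = ((β ∘ φ₂ ∘ β') (β y)) ^ n from h]
    show (β (φ₂ (β' (β y)))) ^ n = _
    rw [hbl y (Subgroup.mem_sup_right hy.1), hy₂]

omit [Fact p.Prime] [Finite S] in
/-- The elements of `fixedJ` fixed by the relative extensions of order prime to `p` at `T`. -/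
def fixedT : Subgroup Ω where
  carrier := {y | y ∈ fixedJ (F := F) (E := E) (p := p) (S := S) (T := T) ∧ ∀ (φ : Ω → Ω) (l : ℕ),
    Rel F T T φ → Iso E φ T T → l.Coprime p → (∀ v ∈ T ⊔ centralizerIn S T, φ^[l] v = v) → φ y = y}
  one_mem' := ⟨one_mem _, fun φ l hφ _ _ _ => hφ.1.mor.map_one⟩
  mul_mem' {a b} ha hb := ⟨mul_mem ha.1 hb.1, fun φ l h1 h2 h3 h4 => by
    rw [h1.1.mor.map_mul (Subgroup.mem_sup_right ha.1.1) (Subgroup.mem_sup_right hb.1.1),
      ha.2 φ l h1 h2 h3 h4, hb.2 φ l h1 h2 h3 h4]⟩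
  inv_mem' {a} ha := ⟨inv_mem ha.1, fun φ l h1 h2 h3 h4 => by
    rw [h1.1.mor.map_inv (Subgroup.mem_sup_right ha.1.1), ha.2 φ l h1 h2 h3 h4]⟩

theorem fixedT_sym (hβ : Iso F β (T ⊔ centralizerIn S T) (T ⊔ centralizerIn S T))
    (hβT : ∀ t ∈ T, β t ∈ T) (hy : y ∈ fixedT (F := F) (E := E) (p := p) (S := S) (T := T)) :
    β y ∈ fixedT (F := F) (E := E) (p := p) (S := S) (T := T) := by
  refine ⟨fixedJ_sym c hβ hβT hy.1, fun φ l hφ hφE hl hφl => ?_⟩
  haveI := finite_of_le c.tle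
  obtain ⟨β', hβ', hβ'T, hbl, hbr⟩ := c.sym_symm hβ hβT
  have hbT : Iso F β T T := (hβ.mor.restrict le_sup_left).iso_of_card hβT le_rfl
  have hb'T : Iso F β' T T := (hβ'.mor.restrict le_sup_left).iso_of_card hβ'T le_rfl
  set ψ := β' ∘ φ ∘ β with hψdef
  have hψ : Iso F ψ (T ⊔ centralizerIn S T) (T ⊔ centralizerIn S T) := (hβ.comp hφ.1).comp hβ'
  have hψE : Iso E ψ T T :=
    c.toWCtx.conj_mor le_rfl hb'T hbT (fun v hv => hbr v (Subgroup.mem_sup_left hv)) hφE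
  have hψr : Rel F T T ψ := by
    refine ⟨hψ, fun v hv => hψE.mapsTo hv, fun v hv => ?_⟩
    have hbv := c.sym_mapsC hβ hβT hv
    have hw := hφ.2.2 _ hbv
    refine ⟨?_, (Subgroup.centralizer _).mul_mem ((Subgroup.centralizer _).inv_mem hv.2)
      (c.sym_mapsC hψ (fun t ht => hψE.mapsTo ht) hv).2⟩
    show v⁻¹ * β' (φ (β v)) ∈ T
    rw [← mul_inv_cancel_left (β v) (φ (β v)), hβ'.mor.map_mul (Subgroup.mem_sup_right hbv)
      (Subgroup.mem_sup_left hw.1), hbl v (Subgroup.mem_sup_right hv), inv_mul_cancel_left]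
    exact hβ'T _ hw.1
  have hψl : ∀ v ∈ T ⊔ centralizerIn S T, ψ^[l] v = v := fun v hv => by
    have h := iterate_conj (f := φ) (a := β') (a' := β) (fun z hz => hφ.1.mapsTo hz) hbr l (β v)
      (hβ.mapsTo hv)
    rwa [hbl v hv, hφl _ (hβ.mapsTo hv), hbl v hv] at h
  have h := hy.2 ψ l hψr hψE hl hψl
  have hby : β y ∈ T ⊔ centralizerIn S T := hβ.mapsTo (Subgroup.mem_sup_right hy.1.1)
  conv_rhs => rw [← h]
  exact (hbr _ (hφ.1.mapsTo hby)).symm

/-- Every element of `C_S(T)` has a translate by `Z(T)` in `fixedT`. -/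
theorem exists_translate (hy : y ∈ centralizerIn S T) :
    ∃ z ∈ T, y * z ∈ fixedT (F := F) (E := E) (p := p) (S := S) (T := T) := by
  obtain ⟨hJn, hJc⟩ := top_thompson_facts c
  haveI := finite_of_le c.tle
  have hJT : thompsonSubgroupAOf T ≤ T := thompson_le
  obtain ⟨z₁, ⟨hz₁, -⟩, hcomm, hfix₁⟩ := average_fix c hJn hJc hy ⊤ fun _ _ _ => Subgroup.mem_top _
  have hz₁C : z₁ ∈ centralizerIn T T := ⟨hz₁.1, fun t ht => by
    have h := hcomm t ⟨ht, conj_thompson c c.tle ⟨c.tle ht, Subgroup.le_normalizer ht⟩⟩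
    rw [cj_apply, mul_inv_eq_iff_eq_mul] at h
    exact h⟩
  have hy₁ : y * z₁ ∈ fixedJ (F := F) (E := E) (p := p) (S := S) (T := T) := by
    refine ⟨mul_mem hy ⟨c.tle hz₁C.1, hz₁C.2⟩, fun φ π l hφ hπ eπ hl hφl => hfix₁ φ hφ ?_ l hl hφl⟩
    exact (autGroup_iso hJT (pGenAut_le hπ)).congr fun v hv => (extFun_apply _ hv).trans (eπ ⟨v, hv⟩).symm
  have hTc : E.IsCentric T := centric_up hJc hJT le_rfl
  obtain ⟨z₂, ⟨hz₂, hz₂Y⟩, -, hfix₂⟩ := average_fix c c.fullyNormalizedT hTc hy₁.1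
    (fixedJ (F := F) (E := E) (p := p) (S := S) (T := T))
    fun φ hφ _ => mul_mem (inv_mem hy₁) (fixedJ_sym c hφ.1 hφ.2.1 hy₁)
  refine ⟨z₁ * z₂, T.mul_mem hz₁.1 hz₂.1, ?_⟩
  rw [← mul_assoc]
  exact ⟨mul_mem hy₁ hz₂Y, fun φ l h1 h2 h3 h4 => hfix₂ φ h1 h2 l h3 h4⟩

theorem fixedT_le : fixedT (F := F) (E := E) (p := p) (S := S) (T := T) ≤ centralizerIn S T :=
  fun _ h => h.1.1

/-- The relative extensions of order prime to `p` at a subgroup below `T` fix `fixedT`. -/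
theorem rel_fixes (hp : p ≠ 2) (hn : F.IsFullyNormalized R) (hR : E.IsCentric R)
    (hJn : F.IsFullyNormalized (thompsonSubgroupAOf R))
    (IH : ∀ P f, Mor E P f → key T R < key T P →
      Fix F (fixedT (F := F) (E := E) (p := p) (S := S) (T := T)) P f)
    (hφ : Rel F T R φ) {π : MulAut R} (hπ : π ∈ pGenAut E p R) (eπ : ∀ v : R, φ v = ((π v : R) : Ω))
    {l : ℕ} (hl : l.Coprime p) (hφl : ∀ v ∈ R ⊔ centralizerIn S R, φ^[l] v = v)
    (hy : y ∈ fixedT (F := F) (E := E) (p := p) (S := S) (T := T)) : φ y = y := by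
  have IH' : ∀ P f, Mor E P f → key T R < key T P → Fix F (Subgroup.zpowers y) P f :=
    fun P f hf hlt => (IH P f hf hlt).mono (Subgroup.zpowers_le.mpr hy)
  have hyC := hy.1.1
  haveI := finite_of_le c.tle
  have hRT := hR.1
  haveI := finite_of_le hRT
  by_cases hA : ∃ A, IsMaxAb (normalizerIn T R) A ∧ ¬ A ≤ R
  · obtain ⟨A, hA, hAR⟩ := hA
    exact quadratic_fix c hp hn hR hyC hA hAR IH' hφ (pGenAut_le hπ) eπ hl hφl
  push Not at hA
  haveI := finite_of_le (normalizerIn_le : normalizerIn T R ≤ T)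
  obtain ⟨hJP, -⟩ := thompson_eq_of_le (le_normalizerIn hRT) hA
  set J := thompsonSubgroupAOf R with hJdef
  have hJR : J ≤ R := thompson_le
  have hJT : J ≤ T := hJR.trans hRT
  have hCJR : centralizerIn T J ≤ R := by
    by_contra hcon
    have hU : R ⊔ centralizerIn T J ≤ T := sup_le hRT centralizerIn_le
    haveI := finite_of_le hU
    obtain ⟨x, hxU, hxR, hxN⟩ := exists_mem_normalizer_of_lt (c.toWCtx.hT.to_le hU)
      (left_lt_sup.mpr hcon)
    have hnorm : R ≤ Subgroup.normalizer ((centralizerIn T J : Subgroup Ω) : Set Ω) := fun r hr => by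
      have hrJ : r ∈ Subgroup.normalizer (J : Set Ω) :=
        conj_thompson c (hRT.trans c.tle) ⟨c.tle (hRT hr), Subgroup.le_normalizer hr⟩
      haveI := finite_of_le (centralizerIn_le : centralizerIn T J ≤ T)
      refine Subgroup.mem_normalizer_fintype fun v hv => ⟨T.mul_mem (T.mul_mem (hRT hr) hv.1)
        (T.inv_mem (hRT hr)), fun u hu => ?_⟩
      have hu' : r⁻¹ * u * r ∈ J := by
        have := (cj_mem_iff (inv_mem hrJ) u).mpr hu
        rwa [cj_apply, inv_inv] at this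
      have h : r⁻¹ * u * r * v = v * (r⁻¹ * u * r) := hv.2 _ hu'
      calc u * (r * v * r⁻¹) = r * (r⁻¹ * u * r * v) * r⁻¹ := by group
        _ = r * (v * (r⁻¹ * u * r)) * r⁻¹ := by rw [h]
        _ = r * v * r⁻¹ * u := by group
    have hx' : x ∈ ((R ⊔ centralizerIn T J : Subgroup Ω) : Set Ω) := hxU
    rw [Subgroup.coe_mul_of_left_le_normalizer_right _ _ hnorm] at hx'
    obtain ⟨r, hr, v, hv, rfl⟩ := hx'
    have hvN : v ∈ normalizerIn T R := ⟨hv.1, by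
      have := mul_mem (inv_mem (Subgroup.le_normalizer hr)) hxN
      rwa [inv_mul_cancel_left] at this⟩
    have hvJ : v ∈ thompsonSubgroupAOf (normalizerIn T R) :=
      mem_thompson_of_centralizes hvN fun u hu => hv.2 u (hJP.symm ▸ hu)
    exact hxR (R.mul_mem hr (hJR (hJP.symm ▸ hvJ)))
  have hCJ : centralizerIn T J ≤ J := fun v hv =>
    mem_thompson_of_centralizes (hCJR hv) fun u hu => hv.2 u hu
  have hJEn := subsystem_fullyNormalized c.hS c.hF c.strong c.hinv.1 hJT hJn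
  have hJc : E.IsCentric J := isCentric_of_fullyCentralized c.toWCtx.hT c.hEsat
    (IsSaturated_fullyNormalized c.toWCtx.hT c.hEsat hJEn).1 hCJ
  have LJ := c.loc hJc (IsSaturated_fullyNormalized c.hS c.hF hJn).1
  have L := c.loc hR (IsSaturated_fullyNormalized c.hS c.hF hn).1
  haveI := finite_of_le hJT
  obtain ⟨π', hπ', eπ'⟩ := pGen_restrict hRT hJR (fun f hf v hv => thompson_map (c.toWCtx.subIso hf) hv) hπ
  have eπJ : ∀ v : J, φ v = ((π' v : J) : Ω) := fun v =>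
    (eπ ⟨v, hJR v.2⟩).trans (eπ' v ⟨v, hJR v.2⟩ rfl).symm
  have hπ'l : π' ^ l = 1 := MulEquiv.ext fun v => Subtype.ext (by
    rw [aut_pow_val eπJ, hφl v (Subgroup.mem_sup_left (hJR v.2))]; rfl)
  obtain ⟨φJ, lJ, hφJ, hlJ, hφJl, eJ⟩ := c.exists_rel_pprime hJn hJc hπ' hl hπ'l
  have hJy : φJ y = y := by
    by_cases hA2 : ∃ A, IsMaxAb (normalizerIn T J) A ∧ ¬ A ≤ J
    · obtain ⟨A, hA2, hAJ⟩ := hA2
      have hkey : key T J = key T R := by
        obtain ⟨h1, h2⟩ := thompson_idem (P := R)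
        rw [key, key, h2, h1]
      exact quadratic_fix c hp hJn hJc hyC hA2 hAJ (fun P f hf hlt => IH' P f hf (hkey ▸ hlt))
        hφJ (pGenAut_le hπ') eJ hlJ hφJl
    push Not at hA2
    haveI := finite_of_le (normalizerIn_le : normalizerIn T J ≤ T)
    have hJ2 : thompsonSubgroupAOf (normalizerIn T J) = J :=
      (thompson_eq_of_le (le_normalizerIn hJT) hA2).1.symm.trans thompson_idem.1
    have hPT : normalizerIn T J = T := by
      by_contra hne
      have hlt : normalizerIn T J < T := lt_of_le_of_ne normalizerIn_le hne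
      obtain ⟨x, hx, hxP, hxN⟩ := exists_mem_normalizer_of_lt c.toWCtx.hT hlt
      refine hxP ⟨hx, ?_⟩
      have := conj_thompson c ((normalizerIn_le : normalizerIn T J ≤ T).trans c.tle)
        (s := x) ⟨c.tle hx, hxN⟩
      rwa [hJ2] at this
    rw [hPT] at hJ2
    obtain ⟨-, hcond⟩ := hy.1
    have key : ∀ K : Subgroup Ω, K = thompsonSubgroupAOf T → ∀ (a : MulAut K) (n : ℕ),
        Rel F T K φJ → a ∈ pGenAut E p K → (∀ v : K, φJ v = ((a v : K) : Ω)) → n.Coprime p →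
        (∀ v ∈ K ⊔ centralizerIn S K, φJ^[n] v = v) → φJ y = y := by
      rintro K rfl a n h1 h2 h3 h4 h5
      exact hcond φJ a n h1 h2 h3 h4 h5
    exact key J hJ2.symm π' lJ hφJ hπ' eJ hlJ hφJl
  have hyR : y ∈ centralizerIn S R := ⟨hyC.1, fun v hv => hyC.2 v (hRT hv)⟩
  have hyJ : y ∈ centralizerIn S J := ⟨hyC.1, fun v hv => hyC.2 v (hJT hv)⟩
  obtain ⟨z, hz, hφy⟩ : ∃ z ∈ centralizerIn T R, φ y = y * z :=
    ⟨_, hφ.2.2 y hyR, (mul_inv_cancel_left _ _).symm⟩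
  have hzJ : z ∈ centralizerIn T J := ⟨hz.1, fun v hv => hz.2 v (hJR hv)⟩
  have heta := eta_fixed LJ hyJ
    (hφ.1.mor.restrict (sup_le (hJR.trans le_sup_left)
      (Subgroup.zpowers_le.mpr (Subgroup.mem_sup_right hyR))))
    (hφJ.1.mor.restrict (sup_le le_sup_left (Subgroup.zpowers_le.mpr (Subgroup.mem_sup_right hyJ))))
    (fun v hv => (eπJ ⟨v, hv⟩).trans (eJ ⟨v, hv⟩).symm) (fun v hv => hφJ.2.1 v hv) hzJ (one_mem _)
    hφy (by rw [hJy, mul_one]) hφJ
  rw [inv_one, mul_one] at heta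
  have hzJ' : z ∈ J := hCJ hzJ
  refine fix_of_fixed_diff L hyR hφ hl hφl hz hφy ?_
  rwa [show φ z = φJ z from (eπJ ⟨z, hzJ'⟩).trans (eJ ⟨z, hzJ'⟩).symm]

end Cfsg.Agent.Fusion.CentOdd
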