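/-
`C_S(T) = Z(T) C_S(E)` for a normal subsystem `E` on `T`, `p` odd.
-/
import Cfsg.Agent.Fusion.CentOdd.Global
set_option autoImplicit false
set_option linter.style.haveILetI false
set_option linter.unusedSectionVars false
set_option maxHeartbeats 2000000

namespace Cfsg.Agent.Fusion.CentOdd

open scoped commutatorElement
open Cfsg Cfsg.FusionSystem Cfsg.Agent.FusionZJ Cfsg.Agent.Fusion.SatCrit Cfsg.Agent.Fusion.WeakResidual
open Cfsg.Agent.Fusion.CharSys (af af_coe af_apply af_mem af_mul af_one af_inv_self)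
open Cfsg.Agent.Fusion.CentFix (exists_pprime_power iterate_agree iterate_rel)
open Cfsg.Agent.Fusion.CentE (Loc Rel Ctx Fix Good pGenAut centE)

variable {Ω : Type*} [Group Ω] {S T : Subgroup Ω} {F : FusionSystem S} {E : FusionSystem T}
  {p : ℕ} {P Q R : Subgroup Ω} {φ f g u : Ω → Ω} {y : Ω}

variable (c : Ctx F E p) [Fact p.Prime] [Finite S]
include c

/-- An injective map on the normalizer of a fully normalized subgroup gives a fully normalized one. -/
theorem fullyNormalized_image {R' : Subgroup Ω} (hR : F.IsFullyNormalized R)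
    (hg : Mor F (normalizerIn S R) g) (hi : Iso F g R R') : F.IsFullyNormalized R' := by
  refine ⟨hi.cod_le, fun Q hQ => (hR.2 Q (isConj_trans hi.isConj hQ)).trans ?_⟩
  haveI := finite_of_le (normalizerIn_le : normalizerIn S R' ≤ S)
  haveI := finite_of_le hi.cod_le
  have hle : ∀ x ∈ normalizerIn S R, g x ∈ normalizerIn S R' := fun x hx => by
    refine ⟨hg.map_mem hx, Subgroup.mem_normalizer_fintype fun v hv => ?_⟩
    obtain ⟨w, hw, rfl⟩ := hi.surj hv
    rw [← hg.map_conj hx (le_normalizerIn hR.1 hw)]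
    exact hi.mapsTo ((cj_mem_iff hx.2 w).mpr hw)
  exact Nat.card_le_card_of_injective
    (fun x : normalizerIn S R => (⟨g x, hle x x.2⟩ : normalizerIn S R'))
    fun a b h => Subtype.ext (hg.injOn a.2 b.2 (congrArg Subtype.val h))

/-- A conjugate that is fully normalized together with its Thompson subgroup. -/
theorem exists_both_fullyNormalized (hR : R ≤ S) :
    ∃ R' g, F.IsFullyNormalized R' ∧ F.IsFullyNormalized (thompsonSubgroupAOf R') ∧
      Mor F (normalizerIn S R) g ∧ Iso F g R R' := by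
  obtain ⟨R₂, hR₂, hn⟩ := exists_fullyNormalized (F := F) hR
  obtain ⟨u, hu⟩ := isConj_iff.mp hR₂
  obtain ⟨-, g₁, -, hg₁, -, hm₁, hg₁R⟩ := exists_map_to_fullyNormalized c.hS c.hF hu hn
  obtain ⟨J₃, hJ₃, hJn⟩ := exists_fullyNormalized (F := F) (thompson_le.trans hn.1 : thompsonSubgroupAOf R₂ ≤ S)
  obtain ⟨u₂, hu₂⟩ := isConj_iff.mp hJ₃
  obtain ⟨-, g₂, -, hg₂, -, -, hg₂J⟩ := exists_map_to_fullyNormalized c.hS c.hF hu₂ hJn
  have hNN : normalizerIn S R₂ ≤ normalizerIn S (thompsonSubgroupAOf R₂) := fun s hs =>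
    ⟨hs.1, conj_thompson c hn.1 hs⟩
  have hg₂R := hg₂.restrict hNN
  set R₃ := (hg₂R.restrict (le_normalizerIn hn.1)).img
  have hi₂ : Iso F g₂ R₂ R₃ := (hg₂R.restrict (le_normalizerIn hn.1)).toIso
  have hJ : thompsonSubgroupAOf R₃ = J₃ := by
    ext v
    constructor
    · intro hv
      obtain ⟨w, hw, rfl⟩ := (thompson_iso hi₂).surj hv
      exact hg₂J.mapsTo hw
    · intro hv
      obtain ⟨w, hw, rfl⟩ := hg₂J.surj hv
      exact thompson_map hi₂ hw
  refine ⟨R₃, g₂ ∘ g₁, fullyNormalized_image c hn hg₂R hi₂, hJ.symm ▸ hJn,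
    hg₁.comp hg₂R hm₁, hg₁R.comp hi₂⟩

theorem closed_guard {Y : Subgroup Ω} (hY : Y ≤ centralizerIn S T) (k : ℕ) :
    Closed E (fun P f => k ≤ key T P → Fix F Y P f) := by
  haveI := finite_of_le c.tle
  have hYS : Y ≤ S := hY.trans centralizerIn_le
  exact
    { conj := fun {P s} hP hs _ => ⟨cj s, Mor.conj (sup_le (hP.trans c.tle) hYS)
        (c.tle hs), fun _ _ => rfl, fun y hy => by
          rw [cj_apply, (hY hy).2 s hs, mul_inv_cancel_right]⟩
      congr := fun _ e h hk => by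
        obtain ⟨ψ, hψ, h, hy⟩ := h hk
        exact ⟨ψ, hψ, fun x hx => (h x hx).trans (e x hx), hy⟩
      comp := by
        rintro P Q f g hf hg m h₁ h₂ hk
        have hkQ : k ≤ key T Q := by
          refine hk.trans ((key_iso hf.toIso).symm.le.trans (key_mono (fun z hz => ?_) hg.dom_le))
          obtain ⟨x, hx, rfl⟩ := hf.mem_img.mp hz
          exact m x hx
        obtain ⟨ψ, hψ, h, hy⟩ := h₁ hk
        obtain ⟨χ, hχ, h', hy'⟩ := h₂ hkQ
        refine ⟨χ ∘ ψ, hψ.comp hχ (hψ.map_sup (fun x hx => Subgroup.mem_sup_left (by rw [h x hx]; exact m x hx))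
          fun x hx => Subgroup.mem_sup_right (by rw [hy x hx]; exact hx)), fun x hx => ?_, fun x hx => ?_⟩
        · show χ (ψ x) = g (f x)
          rw [h x hx, h' _ (m x hx)]
        · show χ (ψ x) = x
          rw [hy x hx, hy' x hx]
      inv := by
        rintro P Q f g hf - e h hk
        obtain ⟨ψ, hψ, h, hy⟩ := h (hk.trans (key_iso hf).le)
        obtain ⟨χ, hχ, hl, -⟩ := hψ.toIso.exists_symm
        refine ⟨χ, hχ.mor.restrict (sup_le (fun z hz => ?_) fun z hz => ?_), fun z hz => ?_, fun z hz => ?_⟩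
        · obtain ⟨x, hx, rfl⟩ := hf.surj hz
          exact hψ.mem_img.mpr ⟨x, Subgroup.mem_sup_left hx, h x hx⟩
        · exact hψ.mem_img.mpr ⟨z, Subgroup.mem_sup_right hz, hy z hz⟩
        · obtain ⟨x, hx, rfl⟩ := hf.surj hz
          rw [← h x hx, hl x (Subgroup.mem_sup_left hx), h x hx, e x hx]
        · conv_lhs => rw [← hy z hz]
          exact hl z (Subgroup.mem_sup_right hz) }

/-- The maps of `E` fix `fixedT`. -/
theorem fixedT_good (hp : p ≠ 2) :
    Good F E (fixedT (F := F) (E := E) (p := p) (S := S) (T := T)) := by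
  haveI := finite_of_le c.tle
  set Y := fixedT (F := F) (E := E) (p := p) (S := S) (T := T) with hYdef
  have hY : Y ≤ centralizerIn S T := fixedT_le c
  have hT : IsPGroup p T := c.toWCtx.hT
  suffices H : ∀ m k, key T T + 1 - k = m → ∀ P f, Mor E P f → k ≤ key T P → Fix F Y P f from
    fun P f hf => H _ 0 rfl P f hf (Nat.zero_le _)
  intro m
  induction m using Nat.strong_induction_on with
  | _ m ihm =>
  intro k hmk
  have IHk : ∀ P f, Mor E P f → k < key T P → Fix F Y P f := fun P f hf hlt =>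
    ihm (key T T + 1 - key T P) (by have := key_mono hf.dom_le (le_refl T); omega) _ rfl P f hf le_rfl
  have hcl := closed_guard c hY k
  refine mor_induction hT c.hEsat hcl fun R hRn IH f hf hk => ?_
  rcases hk.lt_or_eq with hlt | hkR
  · exact IHk R f hf.mor hlt
  haveI := finite_of_le hRn.1
  haveI := finite_mulAut (G := R)
  have IHR : ∀ P f, Mor E P f → key T R < key T P → Fix F Y P f := fun P f hf hlt =>
    IHk P f hf (hkR ▸ hlt)
  obtain ⟨hfc, -, hrec⟩ := IsSaturated_fullyNormalized hT c.hEsat hRn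
  by_cases hcent : centralizerIn T R ≤ R
  swap
  · obtain ⟨e, he, ee⟩ := (receptive_iff.mp hrec).2 R f hf
    have hle : R ⊔ centralizerIn T R ≤ nphi T R f := sup_le hf.mor.le_nphi centralizerIn_le_nphi
    have hN : nphi T R f ≤ T := nphi_le.trans normalizerIn_le
    haveI := finite_of_le (hle.trans hN)
    have h := IH _ e (he.restrict hle) (card_lt_of_lt (left_lt_sup.mpr hcent))
    exact hcl.congr (he.restrict (le_sup_left.trans hle)) ee
      (hcl.restrict (he.restrict hle) le_sup_left h) hk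
  have hRc := isCentric_of_fullyCentralized hT c.hEsat hfc hcent
  by_cases hRT : R = T
  · subst hRT
    have L := c.loc hRc c.fullyCentralizedT
    have hmem : (⟨hf.equiv, hf.equiv_mem_autGroup⟩ : E.autGroup R) ∈ pResidual p ↥(E.autGroup R) ⊔
        (autInducedBy R R).subgroupOf (E.autGroup R) :=
      (autGroup_generated hT c.hEsat hRn).symm ▸ Subgroup.mem_top _
    suffices key : ∀ α ∈ pResidual p ↥(E.autGroup R) ⊔ (autInducedBy R R).subgroupOf (E.autGroup R),
        k ≤ key R R → Fix F Y R (af (α : MulAut R)) by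
      exact hcl.congr (autGroup_iso le_rfl hf.equiv_mem_autGroup).mor (fun x hx => (af_apply _ hx).trans rfl)
        (key _ hmem) hk
    intro α hα
    rw [pResidual, ← Subgroup.closure_eq ((autInducedBy R R).subgroupOf (E.autGroup R)),
      ← Subgroup.closure_union] at hα
    induction hα using Subgroup.closure_induction with
    | mem γ hγ =>
      rcases hγ with hγ | hγ
      · intro _
        have hi : Iso E (af (γ : MulAut R)) R R := autGroup_iso le_rfl γ.2
        obtain ⟨-, β, hβ, eβ, hβc⟩ := c.hext _ hi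
        obtain ⟨m, l, hm, hl, hml⟩ := exists_pprime_power hβ (show (orderOf γ).Coprime p from hγ)
        have hord : ∀ n, ∀ x : R, (af (γ : MulAut R))^[n] (x : Ω) = (((((γ : MulAut R)) ^ n) x : R) : Ω) := by
          intro n
          induction n with
          | zero => intro x; rfl
          | succ n ih => intro x; rw [Function.iterate_succ_apply', ih, af_coe, pow_succ', MulAut.mul_apply]
        have hγk : ∀ x ∈ R, (af (γ : MulAut R))^[orderOf γ] x = x := fun x hx => by
          rw [hord _ ⟨x, hx⟩, ← SubmonoidClass.coe_pow, pow_orderOf_eq_one]; rfl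
        have heq : ∀ x ∈ R, β^[m] x = af (γ : MulAut R) x := fun x hx => by
          rw [iterate_agree (fun z hz => hi.mapsTo hz) eβ m x hx, iterate_mod hγk m hx, hm,
            ← iterate_mod hγk 1 hx, Function.iterate_one]
        have hrel : Rel F R R β^[m] := by
          refine ⟨iso_pow hβ m, fun x hx => by rw [heq x hx]; exact hi.mapsTo hx, fun x hx => ?_⟩
          have hxW : x ∈ R ⊔ centralizerIn S R := Subgroup.mem_sup_right hx
          refine ⟨iterate_rel hβ c.strong hxW (hβc x hx) m,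
            (Subgroup.centralizer _).mul_mem ((Subgroup.centralizer _).inv_mem hx.2) ?_⟩
          exact (c.sym_mapsC (iso_pow hβ m) (fun t ht => by rw [heq t ht]; exact hi.mapsTo ht) hx).2
        exact ⟨β^[m], hrel.1.mor.restrict (sup_le_sup_left hY R), heq, fun y hy =>
          hy.2 _ l hrel (hi.congr fun x hx => (heq x hx).symm) hl hml⟩
      · obtain ⟨t, ht, -, et⟩ := mem_autInducedBy.mp (show (γ : MulAut R) ∈ autInducedBy R R from hγ)
        exact hcl.congr (Mor.conj le_rfl ht) (fun x hx => by rw [af_apply _ hx, et ⟨x, hx⟩, cj_apply])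
          (hcl.conj le_rfl ht)
    | one =>
      exact hcl.congr (Mor.conj le_rfl R.one_mem) (fun x hx => by rw [cj_one]; exact (af_one hx).symm)
        (hcl.conj le_rfl R.one_mem)
    | mul γ δ _ _ hγ hδ =>
      have hid : Iso E (af (δ : MulAut R)) R R := autGroup_iso le_rfl δ.2
      have hig : Iso E (af (γ : MulAut R)) R R := autGroup_iso le_rfl γ.2
      exact hcl.congr (hid.comp hig).mor (fun x hx => (af_mul _ _ hx).symm)
        (hcl.comp hid.mor hig.mor (fun x hx => hid.mapsTo hx) hδ hγ)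
    | inv γ _ hγ =>
      exact hcl.inv (autGroup_iso le_rfl γ.2) (autGroup_iso le_rfl γ⁻¹.2)
        (fun x hx => af_inv_self _ hx) hγ
  -- move to a subgroup fully normalized together with its Thompson subgroup
  have hRS := hRn.1.trans c.tle
  obtain ⟨R₂, g, hn, hJn, hg, hgR⟩ := exists_both_fullyNormalized c hRS
  haveI := finite_of_le (normalizerIn_le : normalizerIn T R ≤ T)
  have hgN := hg.restrict (inf_le_inf_right _ c.tle : normalizerIn T R ≤ normalizerIn S R)
  obtain ⟨a, w, ha, hw, eg⟩ := invariant_frattini c.hinv hgN normalizerIn_le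
  have hRN : R ≤ normalizerIn T R := le_normalizerIn hRn.1
  have hwFix : Fix F Y R w := hcl.restrict hw hRN
    (IH _ w hw (@card_lt_of_lt _ _ _ _ (finite_of_le normalizerIn_le)
      (lt_normalizerIn hT (lt_of_le_of_ne hRn.1 hRT)))) hk
  set R₁ := (hw.restrict hRN).img
  have hwi : Iso E w R R₁ := (hw.restrict hRN).toIso
  obtain ⟨w', hw', hwl, hwr⟩ := hwi.exists_symm
  obtain ⟨g', hg', hgl, -⟩ := hgR.exists_symm
  have hR₂c : E.IsCentric R₂ := c.toWCtx.ec_conj hRc hgR
  have hR₂T := hR₂c.1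
  have hf₂ := c.toWCtx.conj_mor hRn.1 hgR hg' hgl hf
  haveI := finite_of_le hR₂T
  haveI := finite_mulAut (G := R₂)
  have hcard : Nat.card R₂ = Nat.card R := hgR.card_eq.symm
  have hkey₂ : key T R₂ = key T R := key_iso hgR
  have hk₂ : k ≤ key T R₂ := hkey₂ ▸ hk
  have hR₂ne : R₂ ≠ T := fun e => hRT (eq_of_le_of_card hRn.1 (e ▸ hcard).le)
  -- the automorphisms at `R₂`
  have hkey : Fix F Y R₂ (g ∘ f ∘ g') := by
    have hEn := subsystem_fullyNormalized c.hS c.hF c.strong c.hinv.1 hR₂T hn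
    obtain ⟨-, hfa, hrec₂⟩ := IsSaturated_fullyNormalized hT c.hEsat hEn
    set Ag := E.autGroup R₂
    set K := Subgroup.closure {β : Ag | ∃ k : ℕ, orderOf β = p ^ k} with hK
    haveI hKn : K.Normal := ⟨fun β hβ d => by
      have hle : K ≤ K.comap (MulAut.conj d).toMonoidHom := by
        rw [hK, Subgroup.closure_le]
        rintro γ ⟨k, hk⟩
        exact Subgroup.subset_closure ⟨k, by rw [← hk]; exact MulEquiv.orderOf_eq (MulAut.conj d) γ⟩
      exact hle hβ⟩
    obtain ⟨-, V, hV⟩ := hfa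
    have hVK : (V : Subgroup Ag) ≤ K := fun β hβ => by
      obtain ⟨k, hk⟩ := IsPGroup.iff_orderOf.mp V.isPGroup' ⟨β, hβ⟩
      exact Subgroup.subset_closure ⟨k, by rwa [← Subgroup.orderOf_mk (H := (V : Subgroup Ag)) β hβ]⟩
    have hav : ∀ γ : Ag, Iso E (af (γ : MulAut R₂)) R₂ R₂ := fun γ => autGroup_iso hR₂T γ.2
    have hmul : ∀ γ δ : Ag, Fix F Y R₂ (af (γ : MulAut R₂)) → Fix F Y R₂ (af (δ : MulAut R₂)) →
        Fix F Y R₂ (af ((γ * δ : Ag) : MulAut R₂)) := fun γ δ hγ hδ =>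
      hcl.congr ((hav δ).comp (hav γ)).mor (fun x hx => (af_mul _ _ hx).symm)
        (hcl.comp (hav δ).mor (hav γ).mor (fun x hx => (hav δ).mapsTo hx) (fun _ => hδ) (fun _ => hγ)) hk₂
    have hKfix : ∀ k ∈ K, Fix F Y R₂ (af ((k : Ag) : MulAut R₂)) := by
      intro k0 hk0
      have htop : pResidual p K ⊔ ((V : Subgroup Ag).subgroupOf K) = ⊤ := by
        refine eq_top_of_pResidual_le (p := p) le_sup_left fun hd => V.not_dvd_index ?_
        exact (hd.trans (Subgroup.index_dvd_of_le le_sup_right)).trans (Subgroup.relIndex_dvd_index_of_le hVK)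
      have hk' : (⟨k0, hk0⟩ : K) ∈ Subgroup.closure ({γ : K | (orderOf γ).Coprime p} ∪
          ((V : Subgroup Ag).subgroupOf K : Set K)) := by
        rw [Subgroup.closure_union, Subgroup.closure_eq]
        exact htop.ge (Subgroup.mem_top _)
      suffices h : ∀ γ : K, γ ∈ Subgroup.closure ({γ : K | (orderOf γ).Coprime p} ∪
          ((V : Subgroup Ag).subgroupOf K : Set K)) → Fix F Y R₂ (af (((γ : Ag)) : MulAut R₂)) from
        h ⟨k0, hk0⟩ hk'
      intro γ hγ
      induction hγ using Subgroup.closure_induction with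
      | mem γ hγ =>
        rcases hγ with hγ | hγ
        · have hmem : (((γ : Ag)) : MulAut R₂) ∈ pGenAut E p R₂ := by
            have hle : K ≤ (pGenAut E p R₂).subgroupOf Ag := by
              rw [hK, Subgroup.closure_le]
              rintro β ⟨j, hj⟩
              exact Subgroup.subset_closure ⟨β.2, j, (Subgroup.orderOf_coe β).trans hj⟩
            exact hle γ.2
          obtain ⟨φ, l, hφ, hl, hφl, eφ⟩ := c.exists_rel_pprime hn hR₂c hmem
            (show (orderOf γ).Coprime p from hγ)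
            (by rw [← SubmonoidClass.coe_pow, ← SubmonoidClass.coe_pow, pow_orderOf_eq_one]; rfl)
          exact ⟨φ, hφ.1.mor.restrict (sup_le_sup_left
              (fun y hy => ⟨(hY hy).1, fun v hv => (hY hy).2 v (hR₂T hv)⟩) R₂),
            fun x hx => (eφ ⟨x, hx⟩).trans (af_apply _ hx).symm, fun y hy =>
              rel_fixes c hp hn hR₂c hJn (fun P f hf hlt => IHR P f hf (hkey₂ ▸ hlt)) hφ hmem eφ hl hφl hy⟩
        · have h0 : ((γ : Ag)) ∈ (V : Subgroup Ag) := hγ
          rw [hV] at h0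
          obtain ⟨t, ht, htn, et⟩ := mem_autInducedBy.mp (Subgroup.mem_subgroupOf.mp h0)
          exact hcl.congr (Mor.conj hR₂T ht) (fun x hx => by rw [af_apply _ hx, et ⟨x, hx⟩, cj_apply])
            (hcl.conj hR₂T ht) hk₂
      | one =>
        exact hcl.congr (Mor.conj hR₂T T.one_mem) (fun x hx => by rw [cj_one]; exact (af_one hx).symm)
          (hcl.conj hR₂T T.one_mem) hk₂
      | mul γ δ _ _ hγ hδ => exact hmul _ _ hγ hδ
      | inv γ _ hγ =>
        exact hcl.inv (hav (γ : Ag)) (hav ((γ⁻¹ : K) : Ag)) (fun x hx => af_inv_self _ hx)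
          (fun _ => hγ) hk₂
    obtain ⟨n, hnn, k1, hk1, hnk⟩ := Subgroup.mem_sup_of_normal_right.mp
      ((Sylow.normalizer_sup_eq_top' V hVK).ge
        (Subgroup.mem_top (⟨hf₂.equiv, hf₂.equiv_mem_autGroup⟩ : Ag)))
    have hne : ∀ x ∈ normalizerIn T R₂, x ∈ R₂ ∨ ∃ hx : x ∈ normalizerIn T R₂,
        (n : MulAut R₂) * actHom T R₂ ⟨x, hx⟩ * (n : MulAut R₂)⁻¹ ∈ autInducedBy T R₂ := fun x hx => by
      refine Or.inr ⟨hx, ?_⟩
      have hx' : (⟨actHom T R₂ ⟨x, hx⟩, autInducedBy_le_autGroup hR₂T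
          ((range_actHom T R₂).le ⟨_, rfl⟩)⟩ : Ag) ∈ (V : Subgroup Ag) := by
        rw [hV]; exact Subgroup.mem_subgroupOf.mpr ((range_actHom T R₂).le ⟨_, rfl⟩)
      have h2 := ((Subgroup.mem_normalizer_iff.mp hnn) _).mp hx'
      rw [hV] at h2
      exact h2
    obtain ⟨e, he, ee⟩ := ext_of_conj hrec₂ n.2 hne
    haveI := finite_of_le (normalizerIn_le : normalizerIn T R₂ ≤ T)
    have hlt := card_lt_of_lt (lt_normalizerIn hT (lt_of_le_of_ne hR₂T hR₂ne))
    have hRN₂ : R₂ ≤ normalizerIn T R₂ := le_normalizerIn hR₂T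
    have hnfix : Fix F Y R₂ (af ((n : Ag) : MulAut R₂)) :=
      hcl.congr (he.restrict hRN₂) (fun x hx => (ee ⟨x, hx⟩ (hRN₂ hx)).trans (af_apply _ hx).symm)
        (hcl.restrict he hRN₂ (IH _ e he (hcard.symm.trans_lt hlt))) hk₂
    have h := hmul n k1 hnfix (hKfix k1 hk1)
    rw [hnk] at h
    exact hcl.congr (autGroup_iso hR₂T hf₂.equiv_mem_autGroup).mor
      (fun x hx => (af_apply _ hx).trans rfl) (fun _ => h) hk₂
  -- transport back
  obtain ⟨β, hβ, eβ⟩ := c.ext_aut ha
  have hβT : ∀ t ∈ T, β t ∈ T := fun t ht => by rw [eβ t ht]; exact ha.mapsTo ht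
  obtain ⟨β', hβ', hβ'T, hβl, hβr⟩ := c.sym_symm hβ hβT
  have hR₁T : R₁ ≤ T := hwi.cod_le
  have hle₁ : R₁ ⊔ Y ≤ T ⊔ centralizerIn S T := sup_le_sup hR₁T hY
  have hle₂ : R₂ ⊔ Y ≤ T ⊔ centralizerIn S T := sup_le_sup hR₂T hY
  have hβR : ∀ x ∈ R, β (w x) = g x := fun x hx => by
    rw [eβ _ (hR₁T (hwi.mapsTo hx)), eg x (hRN hx)]
  obtain ⟨ψ, hψ, eψ, hψY⟩ := hkey
  have m1 : ∀ x ∈ R₁ ⊔ Y, β x ∈ R₂ ⊔ Y := (hβ.mor.restrict hle₁).map_sup
    (fun x hx => Subgroup.mem_sup_left (by
      obtain ⟨v, hv, rfl⟩ := hwi.surj hx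
      rw [hβR v hv]; exact hgR.mapsTo hv))
    (fun x hx => Subgroup.mem_sup_right (fixedT_sym c hβ hβT hx))
  have m2 : ∀ x ∈ R₂ ⊔ Y, ψ x ∈ R₂ ⊔ Y := hψ.map_sup
    (fun x hx => Subgroup.mem_sup_left (by rw [eψ x hx]; exact hf₂.mapsTo hx))
    (fun x hx => Subgroup.mem_sup_right (by rw [hψY x hx]; exact hx))
  have h₁ : Fix F Y R₁ (w ∘ f ∘ w') := by
    refine ⟨β' ∘ ψ ∘ β, ((hβ.mor.restrict hle₁).comp hψ m1).comp hβ'.mor
      fun x hx => hle₂ (m2 _ (m1 x hx)), fun x hx => ?_, fun y hy => ?_⟩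
    · obtain ⟨v, hv, rfl⟩ := hwi.surj hx
      show β' (ψ (β (w v))) = w (f (w' (w v)))
      rw [hβR v hv, eψ _ (hgR.mapsTo hv), hwl v hv]
      show β' (g (f (g' (g v)))) = w (f v)
      rw [hgl v hv, ← hβR _ (hf.mapsTo hv), hβl _ (Subgroup.mem_sup_left (hR₁T (hwi.mapsTo (hf.mapsTo hv))))]
    · show β' (ψ (β y)) = y
      rw [hψY _ (fixedT_sym c hβ hβT hy), hβl y (Subgroup.mem_sup_right (hY hy))]
  have hmid : Iso E (w ∘ f ∘ w') R₁ R₁ := (hw'.comp hf).comp hwi
  have h₂ := hcl.comp (hw.restrict hRN) hmid.mor (fun x hx => hwi.mapsTo hx) (fun _ => hwFix) (fun _ => h₁)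
  have h₃ := hcl.comp (hwi.comp hmid).mor hw'.mor (fun x hx => (hwi.comp hmid).mapsTo hx) h₂
    (hcl.inv hwi hw' hwl (fun _ => hwFix))
  refine hcl.congr ((hwi.comp hmid).comp hw').mor (fun x hx => ?_) h₃ hk
  show w' (w (f (w' (w x)))) = f x
  rw [hwl x hx, hwl _ (hf.mapsTo hx)]

/-- **`C_S(T) ≤ Z(T) C_S(E)` for `p` odd.** -/
theorem exists_mul_mem_centE (hp : p ≠ 2) (hy : y ∈ centralizerIn S T) :
    ∃ z ∈ T, y * z ∈ centE F E := by
  obtain ⟨z, hz, h⟩ := exists_translate c hy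
  exact ⟨z, hz, le_sSup (show fixedT (F := F) (E := E) (p := p) (S := S) (T := T) ∈
    {X : Subgroup Ω | X ≤ centralizerIn S T ∧ Good F E X} from ⟨fixedT_le c, fixedT_good c hp⟩) h⟩

end Cfsg.Agent.Fusion.CentOdd
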